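import Cfsg.Agent.GLn.LowDim

/-! The exceptional cases for small representations of `SL_n(q)`. -/

open Matrix Finset
open scoped ComplexConjugate InnerProductSpace

namespace Cfsg.Agent.GLn

local notation "tv" => Matrix.SpecialLinearGroup.transvection

section General

variable {F : Type*} [Field F] {ι : Type*} [Fintype ι] [DecidableEq ι]

/-- The inverse-transpose automorphism. -/
def invT : Matrix.SpecialLinearGroup ι F →* Matrix.SpecialLinearGroup ι F where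
  toFun g := ⟨(g⁻¹).1ᵀ, by rw [det_transpose, (g⁻¹).2]⟩
  map_one' := Subtype.ext (by simp)
  map_mul' g h := Subtype.ext (by
    change ((g * h)⁻¹).1ᵀ = (g⁻¹).1ᵀ * (h⁻¹).1ᵀ
    rw [_root_.mul_inv_rev, Matrix.SpecialLinearGroup.coe_mul, transpose_mul])

theorem invT_coe (g : Matrix.SpecialLinearGroup ι F) : (invT g).1 = (g⁻¹).1ᵀ := rfl

theorem invT_trv {v w : ι → F} (h : w ⬝ᵥ v = 0) :
    invT (trv v w h) = trv w (-v) (by rw [neg_dotProduct, dotProduct_comm, h, neg_zero]) := by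
  apply Subtype.ext
  rw [invT_coe, trv_inv, trv_coe, trv_coe, transpose_add, transpose_one, transpose_vecMulVec,
    neg_vecMulVec, vecMulVec_neg]

variable {K : Type*} [Field K] {V : Type*} [AddCommGroup V] [Module K V]
  {ρ : Representation K (Matrix.SpecialLinearGroup ι F) V} {ψ : AddChar F K}

theorem map_wsum [Finite F] {v u : ι → F} (g : Matrix.SpecialLinearGroup ι F) (hv : g.1 *ᵥ v = v)
    (hu : g.1 *ᵥ u = u) (x : V) : ρ g (wsum ρ ψ v u x) = wsum ρ ψ v u (ρ g x) := by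
  have h1 : ∀ (g : Matrix.SpecialLinearGroup ι F) (w : ι → F), w ᵥ* g.1 ᵥ* (g⁻¹).1 = w :=
    fun g w => by
      rw [vecMul_vecMul, ← Matrix.SpecialLinearGroup.coe_mul, mul_inv_cancel,
        Matrix.SpecialLinearGroup.coe_one, vecMul_one]
  let e : perp v ≃ perp v :=
    { toFun := fun w => ⟨w.1 ᵥ* (g⁻¹).1, mem_perp.mpr (by
        rw [← dotProduct_mulVec, sl_inv_mulVec g hv]; exact mem_perp.mp w.2)⟩
      invFun := fun w => ⟨w.1 ᵥ* g.1, mem_perp.mpr (by
        rw [← dotProduct_mulVec, hv]; exact mem_perp.mp w.2)⟩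
      left_inv := fun w => Subtype.ext (by simpa only [inv_inv] using h1 g⁻¹ w.1)
      right_inv := fun w => Subtype.ext (h1 g w.1) }
  rw [wsum_apply, wsum_apply, map_sum]
  refine Fintype.sum_equiv e _ _ fun w => ?_
  rw [map_smul, ← rep_mul_apply, ← rep_mul_apply,
    mul_inv_eq_iff_eq_mul.mp (conj_trv g (mem_perp.mp w.2))]
  congr 3
  · change _ = (w.1 ᵥ* (g⁻¹).1) ⬝ᵥ u
    rw [← dotProduct_mulVec, sl_inv_mulVec g hu]
  · congr 1
    apply trv_congr
    rw [hv]; rfl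

end General

variable {V : Type*} [NormedAddCommGroup V] [InnerProductSpace ℂ V] [FiniteDimensional ℂ V]
  {F : Type*} [Field F] [Fintype F] {ψ : AddChar F ℂ}

theorem fix_of_wt_three {ρ : Representation ℂ (Matrix.SpecialLinearGroup (Fin (0 + 3)) F) V}
    (hρ : IsUni ρ) (hψ : ψ ≠ 1)
    (h : Module.finrank ℂ V < ∑ i ∈ range (0 + 3), Nat.card F ^ i - 1) (hμ : ¬ MuTriv ρ ψ)
    {x : V} (hx : x ∈ wt ρ ψ (ev F 0) 0) {g : Matrix.SpecialLinearGroup (Fin (0 + 3)) F}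
    (hg : g.1 *ᵥ ev F 0 = ev F 0) : ρ g x = x := by
  let ρ' : Representation ℂ (Matrix.SpecialLinearGroup (Fin (0 + 3)) F) V := ρ.comp invT
  have hq := card_perp_ne_zero (K := ℂ) (F := F) (m := 0) (by simp) 2
  have h12 : (1 : Fin (0 + 3)) ≠ 2 := by decide
  have hρ' : ∀ {v w : Fin (0 + 3) → F} (h : w ⬝ᵥ v = 0), ρ' (trv v w h) = ρ (trv w (-v) (by
      rw [neg_dotProduct, dotProduct_comm, h, neg_zero])) := fun h => congrArg ρ (invT_trv h)
  have key : ∀ b : Fin (0 + 3) → F, b 2 = 0 → ∀ y ∈ wt ρ ψ (ev F 0) b, ∀ a, ρ (tv h12 a) y ≠ y →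
      ∃ κ : F, κ ≠ 0 ∧ ∃ z ∈ wt ρ ψ (ev F 0) b, z ≠ 0 ∧ z ∈ wt ρ' ψ (ev F 2) (κ • ev F 1) := by
    intro b hb y hy a ha
    obtain ⟨u, hu, hu0, hz⟩ : ∃ u : Fin (0 + 3) → F, u 2 = 0 ∧ u ≠ 0 ∧
        wsum ρ' ψ (ev F 2) u y ≠ 0 := by
      by_contra! hh
      have := mem_wt_zero.mp (mem_wt_zero_of_wsum hψ hq hh) (Pi.single 1 (-a)) (by simp [h12])
      rw [hρ'] at this
      refine ha (Eq.trans ?_ this)
      rw [tv_eq_trv]
      congr 2
      apply trv_congr
      ext i j; fin_cases i <;> fin_cases j <;> simp [vecMulVec_apply]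
    have hz1 : wsum ρ' ψ (ev F 2) u y ∈ wt ρ ψ (ev F 0) b := by
      rw [wsum_apply]
      refine Submodule.sum_mem _ fun w _ => Submodule.smul_mem _ _ ?_
      rw [hρ']
      exact map_mem_wt hy _ (by rw [trv_mulVec]; simp) (by rw [trv_mulVec]; simp [hb])
    have hz2 := wsum_mem (ρ := ρ') (ψ := ψ) (ev F 2) u y
    have hu1 : u 0 = 0 := by
      by_contra hne
      obtain ⟨t, ht⟩ := exists_apply_mul_ne_one hψ hne
      have h1 := hz2 (Pi.single 0 t) (by simp)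
      have h2 := hz1 (Pi.single 2 (-t)) (by simp)
      rw [hρ', trv_congr _ (v' := ev F 0) (w' := Pi.single 2 (-t)) (by simp) (by
        ext i j; fin_cases i <;> fin_cases j <;> simp [vecMulVec_apply]), h2] at h1
      simp only [single_dotProduct, hb, mul_zero, AddChar.map_zero_eq_one] at h1
      exact ht (smul_left_injective ℂ hz h1).symm
    have hu2 : u = u 1 • ev F 1 := by
      ext i; fin_cases i <;> simp [hu, hu1]
    exact ⟨u 1, fun e => hu0 (by rw [hu2, e, zero_smul]), _, hz1, hz, hu2 ▸ hz2⟩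
  obtain ⟨κ, hκ, y, hy, hy0, hy'⟩ : ∃ κ : F, κ ≠ 0 ∧ ∃ z ∈ wt ρ ψ (ev F 0) (ev F 1), z ≠ 0 ∧
      z ∈ wt ρ' ψ (ev F 2) (κ • ev F 1) := by
    by_contra hh
    refine hμ (muTriv_of_rootIn (finrank_wt_le_one hψ h) fun y hy i j hi hj0 hj1 _ hij a => ?_)
    obtain ⟨rfl, rfl⟩ : i = 1 ∧ j = 2 := by revert i j; decide
    by_contra ha
    exact hh (key _ (by simp [h12.symm]) y hy a ha)
  have h1 : ∀ x ∈ wt ρ ψ (ev F 0) 0, ∀ a, ρ (tv h12 a) x = x := by
    intro x hx a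
    by_contra ha
    obtain ⟨κ', hκ', z, hz, hz0, hz'⟩ := key 0 rfl x hx a ha
    let d : Matrix.SpecialLinearGroup (Fin (0 + 3)) F :=
      ⟨diagonal ![κ' / κ, κ / κ', 1], by simp [Fin.prod_univ_succ, hκ, hκ']⟩
    let d' : Matrix.SpecialLinearGroup (Fin (0 + 3)) F :=
      ⟨diagonal ![κ / κ', κ' / κ, 1], by simp [Fin.prod_univ_succ, hκ, hκ']⟩
    have hd : d⁻¹ = d' := inv_eq_of_mul_eq_one_right (Subtype.ext (by
      change diagonal _ * diagonal _ = 1
      ext i j; fin_cases i <;> fin_cases j <;> simp [hκ, hκ']))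
    have e1 : ρ' d z ∈ wt ρ' ψ (ev F 2) (κ • ev F 1) := map_mem_wt hz' d
      (by ext i; fin_cases i <;> simp [d, mulVec_diagonal])
      (by ext i; fin_cases i <;> simp [d, mulVec_diagonal, hκ'])
    have e2 : ρ' d z ∈ wt ρ ψ (ev F 0) 0 := by
      rw [← wt_smul_zero _ (div_ne_zero hκ hκ')]
      refine map_mem_wt hz (invT d) ?_ (mulVec_zero _)
      rw [invT_coe, hd]
      ext i; fin_cases i <;> simp [d', mulVec_diagonal]
    have e3 := hρ.inner_eq_zero_of_wt hψ (li_ev_pair fin3_zero_ne_one) e2 hy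
    obtain ⟨v, hv⟩ := finrank_le_one_iff.mp ((finrank_wt_le (ρ := ρ') (ψ := ψ) (a := ev F 2)
      (b := κ • ev F 1) (li_pair_of_coord 2 1 (by simpa)) (li_ev_pair fin3_zero_ne_one)).trans
        (finrank_wt_le_one hψ h))
    obtain ⟨c, hc⟩ := hv ⟨_, e1⟩
    obtain ⟨c', hc'⟩ := hv ⟨_, hy'⟩
    have hc1 : ρ' d z = c • v.1 := (congrArg Subtype.val hc).symm
    have hc2 : y = c' • v.1 := (congrArg Subtype.val hc').symm
    have e4 := rep_ne_zero ρ' d hz0
    rw [hc1, hc2, inner_smul_left, inner_smul_right] at e3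
    rw [hc1] at e4
    rw [hc2] at hy0
    simp_all
  refine mem_of_fix (H := fixSub ρ x) {0} (fun i j hj hij a => ?_) g (fun j hj => by
    rw [mem_singleton.mp hj]; exact hg)
  have : i = 0 ∨ (i = 1 ∧ j = 2) ∨ (i = 2 ∧ j = 1) := by revert i j; decide
  rcases this with rfl | ⟨rfl, rfl⟩ | ⟨rfl, rfl⟩
  · rw [mem_fixSub, tv_eq_trv, mem_wt_zero.mp hx]
  · exact h1 x hx a
  · let s : Matrix.SpecialLinearGroup (Fin (0 + 3)) F :=
      ⟨!![1, 0, 0; 0, 0, -1; 0, 1, 0], by simp [det_fin_three]⟩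
    have hs : tv hij a * s = s * tv h12 (-a) := Subtype.ext (by
      simp only [Matrix.SpecialLinearGroup.coe_mul, tv_coe]
      ext i j; fin_cases i <;> fin_cases j <;> simp [s, mul_apply, Fin.sum_univ_three])
    have hs0 : s.1 *ᵥ ev F 0 = ev F 0 := by ext i; fin_cases i <;> simp [s]
    have := h1 _ (map_mem_wt hx s⁻¹ (sl_inv_mulVec s hs0) (mulVec_zero _)) (-a)
    rw [mem_fixSub, ← rep_apply_inv ρ s x, ← rep_mul_apply, hs, rep_mul_apply, this]

theorem fix_of_wt_four {ρ : Representation ℂ (Matrix.SpecialLinearGroup (Fin (1 + 3)) F) V}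
    (hψ : ψ ≠ 1) (hF : ∀ c : F, c ≠ 0 → c ^ 2 = 1)
    (h : Module.finrank ℂ V < ∑ i ∈ range (1 + 3), Nat.card F ^ i - 1) (hμ : ¬ MuTriv ρ ψ)
    {x : V} (hx : x ∈ wt ρ ψ (ev F 0) 0) {g : Matrix.SpecialLinearGroup (Fin (1 + 3)) F}
    (hg : g.1 *ᵥ ev F 0 = ev F 0) : ρ g x = x := by
  have h23 : (2 : Fin (1 + 3)) ≠ 3 := by decide
  have hW := finrank_wt_le_one (ρ := ρ) hψ h
  have key : ∀ y ∈ wt ρ ψ (ev F 0) (ev F 1), ρ (tv h23 1) y = y → y = 0 := by
    intro y hy h1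
    by_contra hy0
    have h2 : ∀ z ∈ wt ρ ψ (ev F 0) (ev F 1), ∀ a, ρ (tv h23 a) z = z := by
      intro z hz a
      obtain ⟨v, hv⟩ := finrank_le_one_iff.mp hW
      obtain ⟨c, hc⟩ := hv ⟨_, hy⟩
      obtain ⟨c', hc'⟩ := hv ⟨_, hz⟩
      have hc1 : y = c • v.1 := (congrArg Subtype.val hc).symm
      have hc2 : z = c' • v.1 := (congrArg Subtype.val hc').symm
      have hc0 : c ≠ 0 := fun e => hy0 (by rw [hc1, e, zero_smul])
      have h3 : tv h23 (1 : F) ∈ fixSub ρ v.1 := by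
        rw [hc1, map_smul] at h1
        exact smul_right_injective _ hc0 h1
      rw [hc2, map_smul]
      congr 1
      by_cases ha : a = 0
      · rw [ha, tv_zero, map_one]; rfl
      rcases sq_eq_one_iff.mp (hF a ha) with rfl | rfl
      · exact h3
      · rw [← Matrix.SpecialLinearGroup.transvection_inv]
        exact (fixSub ρ v.1).inv_mem h3
    refine hμ (muTriv_of_rootIn hW fun z hz i j hi hj0 hj1 hk hij a => ?_)
    have : (i = 2 ∧ j = 3) ∨ (i = 3 ∧ j = 2) := by revert i j; decide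
    rcases this with ⟨rfl, rfl⟩ | ⟨rfl, rfl⟩
    · exact h2 z hz a
    · let s : Matrix.SpecialLinearGroup (Fin (1 + 3)) F :=
        ⟨!![1, 0, 0, 0; 0, 1, 0, 0; 0, 0, 0, -1; 0, 0, 1, 0], by
          simp [det_succ_row_zero, Fin.sum_univ_succ]⟩
      have hs : tv hij a * s = s * tv h23 (-a) := Subtype.ext (by
        simp only [Matrix.SpecialLinearGroup.coe_mul, tv_coe]
        ext i j; fin_cases i <;> fin_cases j <;> simp [s, mul_apply, Fin.sum_univ_four])
      have hs0 : s.1 *ᵥ ev F 0 = ev F 0 := by ext i; fin_cases i <;> simp [s]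
      have hs1 : s.1 *ᵥ ev F 1 = ev F 1 := by ext i; fin_cases i <;> simp [s]
      have := h2 _ (map_mem_wt hz s⁻¹ (sl_inv_mulVec s hs0) (sl_inv_mulVec s hs1)) (-a)
      rw [mem_fixSub, ← rep_apply_inv ρ s z, ← rep_mul_apply, hs, rep_mul_apply, this]
  refine mem_of_fix (H := fixSub ρ x) {0} (fun i j hj hij a => ?_) g (fun j hj => by
    rw [mem_singleton.mp hj]; exact hg)
  rw [mem_singleton] at hj
  by_cases hi : i = 0
  · subst hi; rw [mem_fixSub, tv_eq_trv, mem_wt_zero.mp hx]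
  have hq := card_perp_ne_zero (K := ℂ) (F := F) (m := 1) (by simp) i
  rw [mem_fixSub]
  apply smul_right_injective _ hq
  simp only
  rw [← map_smul, ← sum_wsum hψ, map_sum]
  refine sum_congr rfl fun u _ => ?_
  by_cases hu : LinearIndependent F ![ev F i, u.1, ev F 0]
  · obtain ⟨k, hk⟩ := exists_sl_frame (n := 1 + 3) (by omega) _ _ hu
      (li_ev_triple fin3_zero_ne_one fin3_zero_ne_two fin3_one_ne_two)
    have hk0 : k.1 *ᵥ ev F i = ev F 0 := hk 0
    have hk1 : k.1 *ᵥ u.1 = ev F 1 := hk 1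
    have hk2 : k.1 *ᵥ ev F 0 = ev F 2 := hk 2
    have h1 : ρ (k⁻¹ * tv h23 1 * k) x = x := by
      have := conj_trv k⁻¹ (v := ev F 2) (w := ev F 3) (by simp [h23])
      rw [tv_eq_trv, (congrArg (k⁻¹ * _ * ·) (inv_inv k)).symm.trans this, trv_congr _ (v' := ev F 0) (w' := ev F 3 ᵥ* k.1) (by
        rw [← dotProduct_mulVec, hk2]; simp [h23]) (by rw [sl_inv_mulVec k hk2, inv_inv]),
        mem_wt_zero.mp hx]
    have h2 := map_wsum (ρ := ρ) (ψ := ψ) (k⁻¹ * tv h23 1 * k) (v := ev F i) (u := u.1)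
      (by rw [sl_mul_mulVec, sl_mul_mulVec, hk0, tv_fix_ev _ (by decide), sl_inv_mulVec k hk0])
      (by rw [sl_mul_mulVec, sl_mul_mulVec, hk1, tv_fix_ev _ (by decide), sl_inv_mulVec k hk1]) x
    rw [h1, rep_mul_apply, rep_mul_apply] at h2
    have h3 := key _ (map_mem_wt (wsum_mem _ _ x) k hk0 hk1) (by
      simpa only [rep_apply_inv] using congrArg (ρ k) h2)
    have h4 : wsum ρ ψ (ev F i) u.1 x = 0 := by
      by_contra hne; exact rep_ne_zero ρ k hne h3
    rw [h4, map_zero]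
  · rw [tv_eq_trv, wsum_mem]
    rw [li_triple_iff] at hu
    push Not at hu
    obtain ⟨r, s, t, e, hne⟩ := hu
    have hr : r = 0 := by simpa [perp_single_apply u, hi] using congrFun e i
    have hs : s ≠ 0 := by
      rintro rfl
      exact hne hr rfl (by simpa [hr] using e)
    have : u.1 j = 0 := by simpa [hr, hs, hj] using congrFun e j
    simp [this]

section Perm

variable {m : ℕ}

local notation "SLm" => Matrix.SpecialLinearGroup (Fin (m + 3)) F

omit [Fintype F] in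
theorem eq_of_rows {H : Subgroup SLm} (hH : ∀ v w h, v ≠ 0 → w ≠ 0 → trv v w h ∉ H) {g k : SLm}
    (hg : g ∈ H) (hk : k ∈ H) (h0 : ∀ i, g.1 i 0 = ev F 0 i) (h0' : ∀ i, k.1 i 0 = ev F 0 i)
    (h : ∀ i, i ≠ 0 → g.1 i = k.1 i) : g = k := by
  have hk0 : k.1 *ᵥ ev F 0 = ev F 0 := by ext i; simpa using h0' i
  have hw : ((g.1 0 - k.1 0) ᵥ* (k⁻¹).1) ⬝ᵥ ev F 0 = 0 := by
    rw [← dotProduct_mulVec, sl_inv_mulVec k hk0]; simp [h0, h0']
  have h1 : ∀ w : Fin (m + 3) → F, w ᵥ* (k⁻¹).1 ᵥ* k.1 = w := fun w => by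
    rw [vecMul_vecMul, ← Matrix.SpecialLinearGroup.coe_mul, inv_mul_cancel,
      Matrix.SpecialLinearGroup.coe_one, vecMul_one]
  have e : trv _ _ hw * k = g := Subtype.ext (by
    rw [Matrix.SpecialLinearGroup.coe_mul, trv_coe, add_mul, one_mul, vecMulVec_mul, h1]
    ext i j
    by_cases hi : i = 0
    · simp [hi, vecMulVec_apply]
    · simp [hi, vecMulVec_apply, h i hi])
  by_contra hne
  refine hH _ _ hw (by simp) (fun e' => hne ?_) ((H.mul_mem_cancel_right hk).mp (by rw [e]; exact hg))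
  rw [← e, trv_congr hw (v' := ev F 0) (w' := 0) (by simp) (by rw [e']), trv_zero_right, one_mul]

omit [Fintype F] in
theorem exists_rows {H : Subgroup SLm} (hA : ∀ g : SLm, ∃ w h, trv (ev F 0) w h * g ∈ H)
    {i j : Fin (m + 3)} (hij : i ≠ j) (hj : j ≠ 0) :
    ∃ a ∈ H, (∀ k, a.1 k 0 = ev F 0 k) ∧ ∀ k, k ≠ 0 → a.1 k = (1 + single i j (1 : F)) k := by
  obtain ⟨w, h, hw⟩ := hA (tv hij 1)
  refine ⟨_, hw, fun k => ?_, fun k hk => ?_⟩
  · have : (trv (ev F 0) w h * tv hij (1 : F)).1 *ᵥ ev F 0 = ev F 0 := by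
      rw [sl_mul_mulVec, tv_fix_ev _ hj, trv_mulVec, h, zero_smul, add_zero]
    simpa using congrFun this k
  · rw [Matrix.SpecialLinearGroup.coe_mul, trv_coe, add_mul, one_mul, vecMulVec_mul, tv_coe]
    ext l; simp [vecMulVec_apply, hk]

omit [Fintype F] in
theorem false_of_three {H : Subgroup (Matrix.SpecialLinearGroup (Fin (0 + 3)) F)}
    (h2 : (2 : F) = 0) (hH : ∀ v w h, v ≠ 0 → w ≠ 0 → trv v w h ∉ H)
    (hA : ∀ g, ∃ w h, trv (ev F 0) w h * g ∈ H) : False := by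
  obtain ⟨a, ha, h0, h1⟩ := exists_rows hA (i := 1) (j := 2) (by decide) (by decide)
  obtain ⟨s, t, e⟩ : ∃ s t, a.1 = !![1, s, t; 0, 1, 1; 0, 0, 1] := by
    refine ⟨a.1 0 1, a.1 0 2, ?_⟩
    ext i j; fin_cases i
    · fin_cases j <;> simp [h0]
    all_goals rw [h1 _ (by simp)]; fin_cases j <;> simp
  have h11 : (1 : F) + 1 = 0 := by rw [← h2]; norm_num
  have h3 := eq_of_rows hH (H.mul_mem ha ha) H.one_mem (fun i => by
    fin_cases i <;> simp [e]) (fun i => by fin_cases i <;> simp) fun i hi => by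
      ext j; fin_cases i <;> fin_cases j <;> simp_all
  have h4 : s = 0 := by
    have := congrArg (fun g => g.1 0 2) h3
    simp [e] at this
    linear_combination this - t * h2
  refine hH ![t, 1, 0] ![0, 0, 1] (by simp) (by simp) (by simp) ?_
  convert ha
  apply Subtype.ext
  rw [trv_coe, e]
  ext i j; fin_cases i <;> fin_cases j <;> simp [vecMulVec_apply, h4]

omit [Fintype F] in
theorem false_of_four {H : Subgroup (Matrix.SpecialLinearGroup (Fin (1 + 3)) F)}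
    (h2 : (2 : F) ≠ 0) (hH : ∀ v w h, v ≠ 0 → w ≠ 0 → trv v w h ∉ H)
    (hA : ∀ g, ∃ w h, trv (ev F 0) w h * g ∈ H) : False := by
  obtain ⟨a, ha, a0, a1⟩ := exists_rows hA (i := 1) (j := 2) (by decide) (by decide)
  obtain ⟨b, hb, b0, b1⟩ := exists_rows hA (i := 2) (j := 3) (by decide) (by decide)
  obtain ⟨c, hc, c0, c1⟩ := exists_rows hA (i := 1) (j := 3) (by decide) (by decide)
  obtain ⟨α₁, α₂, α₃, ea⟩ : ∃ r s t, a.1 = !![1, r, s, t; 0, 1, 1, 0; 0, 0, 1, 0; 0, 0, 0, 1] := by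
    refine ⟨a.1 0 1, a.1 0 2, a.1 0 3, ?_⟩
    ext i j; fin_cases i
    · fin_cases j <;> simp [a0]
    all_goals rw [a1 _ (by simp)]; fin_cases j <;> simp
  obtain ⟨β₁, β₂, β₃, eb⟩ : ∃ r s t, b.1 = !![1, r, s, t; 0, 1, 0, 0; 0, 0, 1, 1; 0, 0, 0, 1] := by
    refine ⟨b.1 0 1, b.1 0 2, b.1 0 3, ?_⟩
    ext i j; fin_cases i
    · fin_cases j <;> simp [b0]
    all_goals rw [b1 _ (by simp)]; fin_cases j <;> simp
  obtain ⟨γ₁, γ₂, γ₃, ec⟩ : ∃ r s t, c.1 = !![1, r, s, t; 0, 1, 0, 1; 0, 0, 1, 0; 0, 0, 0, 1] := by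
    refine ⟨c.1 0 1, c.1 0 2, c.1 0 3, ?_⟩
    ext i j; fin_cases i
    · fin_cases j <;> simp [c0]
    all_goals rw [c1 _ (by simp)]; fin_cases j <;> simp
  have h3 := eq_of_rows hH (H.mul_mem hb hc) (H.mul_mem hc hb) (fun i => by
    fin_cases i <;> simp [eb, ec]) (fun i => by fin_cases i <;> simp [eb, ec]) fun i hi => by
      ext j; fin_cases i <;> fin_cases j <;> simp_all
  have h4 := eq_of_rows hH (H.mul_mem ha hb) (H.mul_mem (H.mul_mem hc hb) ha) (fun i => by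
    fin_cases i <;> simp [ea, eb]) (fun i => by fin_cases i <;> simp [ea, eb, ec]) fun i hi => by
      ext j; fin_cases i <;> fin_cases j <;> simp_all
  have e1 := congrArg (fun g => g.1 0 3) h3
  have e2 := congrArg (fun g => g.1 0 1) h4
  have e3 := congrArg (fun g => g.1 0 2) h4
  simp [ea, eb, ec] at e1 e2 e3
  have g1 : γ₁ = 0 := by linear_combination -e2
  have g2 : γ₂ = 0 := mul_left_cancel₀ h2 (by linear_combination -e1 - e3 + e2)
  refine hH ![γ₃, 1, 0, 0] ![0, 0, 0, 1] (by simp) (by simp) (by simp) ?_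
  convert hc
  apply Subtype.ext
  rw [trv_coe, ec]
  ext i j; fin_cases i <;> fin_cases j <;> simp [vecMulVec_apply, g1, g2]

end Perm

end Cfsg.Agent.GLn
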