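import Cfsg.Agent.GLn.Tables
import Cfsg.Agent.GLn.Card
import Cfsg.Agent.CharLib.ClassFun

/-! Orders of parabolic subgroups of `GL_n(q)`; degrees and inner products of the unipotent
characters. -/

namespace Cfsg.Agent.GLn

open Cfsg

section Card
variable {F : Type*} [Field F] [Fintype F] {n : ℕ}

theorem card_GL_congr {ι : Type*} [Fintype ι] [DecidableEq ι] :
    Nat.card (GL ι F) = Nat.card (GL (Fin (Fintype.card ι)) F) :=
  Nat.card_congr (Units.mapEquiv (Matrix.reindexAlgEquiv F F
    (Fintype.equivFin ι)).toMulEquiv).toEquiv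

theorem card_parab_fin (a : Fin n → Fin n) :
    Nat.card (parab F fun i => (a i).val) = (∏ s : Fin n, Nat.card (GL {i // a i = s} F)) *
      Fintype.card F ^ (Finset.univ.filter fun p : Fin n × Fin n => a p.1 < a p.2).card := by
  classical
  rw [← Nat.card_pi, ← Fintype.card_subtype, ← Fintype.card_fun, ← Nat.card_eq_fintype_card,
    ← Nat.card_prod]
  have hdet : ∀ g : parab F fun i => (a i).val, ∀ s,
      ((g.1 : Matrix (Fin n) (Fin n) F).toSquareBlock a s).det ≠ 0 := by
    intro g s h0
    have h1 : (g.1 : Matrix (Fin n) (Fin n) F).BlockTriangular a := fun i j h => g.2 h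
    exact g.1.det_ne_zero (by rw [h1.det_fintype, Finset.prod_eq_zero (Finset.mem_univ s) h0])
  refine Nat.card_congr (Equiv.ofBijective (fun g => (fun s =>
    Matrix.GeneralLinearGroup.mkOfDetNeZero _ (hdet g s),
    fun p => (g.1 : Matrix (Fin n) (Fin n) F) p.1.1 p.1.2)) ⟨?_, ?_⟩)
  · intro g h hgh
    obtain ⟨h1, h2⟩ := Prod.ext_iff.mp hgh
    ext i j
    rcases lt_trichotomy (a i) (a j) with hij | hij | hij
    · exact congrFun h2 ⟨(i, j), hij⟩
    · exact congrArg (fun x : GL {k // a k = a j} F => x ⟨i, hij⟩ ⟨j, rfl⟩) (congrFun h1 (a j))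
    · rw [g.2 hij, h.2 hij]
  · rintro ⟨D, U⟩
    let M : Matrix (Fin n) (Fin n) F := Matrix.of fun i j =>
      if h : a i = a j then D (a j) ⟨i, h⟩ ⟨j, rfl⟩ else if h' : a i < a j then U ⟨(i, j), h'⟩
      else 0
    have hM : M.BlockTriangular a := fun i j h => by
      simp only [M, Matrix.of_apply]
      rw [dif_neg h.ne', dif_neg (not_lt.mpr h.le)]
    have hD : ∀ s, M.toSquareBlock a s = D s := by
      intro s
      ext ⟨i, hi⟩ ⟨j, rfl⟩
      simp [M, Matrix.toSquareBlock_def, hi]
    have hMd : M.det ≠ 0 := by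
      rw [hM.det_fintype, Finset.prod_ne_zero_iff]
      intro s _
      rw [hD]; exact (D s).det_ne_zero
    refine ⟨⟨Matrix.GeneralLinearGroup.mkOfDetNeZero M hMd, fun i j h => hM h⟩, Prod.ext ?_ ?_⟩
    · funext s; exact Units.ext (hD s)
    · funext ⟨⟨i, j⟩, h⟩
      change M i j = _
      simp only [M, Matrix.of_apply]
      rw [dif_neg h.ne, dif_pos h]

theorem card_pairs_lt (a : Fin n → Fin n) (μ : Fin n → ℕ)
    (ha : ∀ s, (Finset.univ.filter fun i => a i = s).card = μ s) :
    (Finset.univ.filter fun p : Fin n × Fin n => a p.1 < a p.2).card +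
      ∑ s, μ s * (μ s - 1) / 2 = n * (n - 1) / 2 := by
  classical
  have h1 : (Finset.univ.filter fun p : Fin n × Fin n => a p.2 < a p.1).card =
      (Finset.univ.filter fun p : Fin n × Fin n => a p.1 < a p.2).card :=
    Finset.card_equiv (Equiv.prodComm _ _) (by simp)
  have h2 : (Finset.univ.filter fun p : Fin n × Fin n => a p.1 = a p.2).card =
      ∑ s, μ s * μ s := by
    rw [Finset.card_eq_sum_card_fiberwise (f := fun p => a p.1) (t := Finset.univ) (by simp)]
    refine Finset.sum_congr rfl fun s _ => ?_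
    rw [← ha s, ← Finset.card_product]
    congr 1
    ext ⟨i, j⟩
    simp only [Finset.mem_filter, Finset.mem_univ, true_and, Finset.mem_product]
    constructor
    · rintro ⟨h1, h2⟩; exact ⟨h2, h1 ▸ h2⟩
    · rintro ⟨h1, h2⟩; exact ⟨h1.trans h2.symm, h1⟩
  have h3 : ∑ s, μ s = n := by
    simp_rw [← ha]
    rw [← Finset.card_eq_sum_card_fiberwise (by simp)]; simp
  have h4 : (Finset.univ.filter fun p : Fin n × Fin n => a p.1 < a p.2).card +
      (Finset.univ.filter fun p : Fin n × Fin n => a p.2 < a p.1).card +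
      (Finset.univ.filter fun p : Fin n × Fin n => a p.1 = a p.2).card = n * n := by
    simp only [Finset.card_filter, ← Finset.sum_add_distrib]
    rw [Finset.sum_congr rfl (g := fun _ => 1)]
    · simp
    · intro p _
      rcases lt_trichotomy (a p.1) (a p.2) with h | h | h
      · simp [h, h.ne, not_lt.mpr h.le]
      · simp [h]
      · simp [h, h.ne', not_lt.mpr h.le]
  have h5 : ∀ m : ℕ, 2 * (m * (m - 1) / 2) + m = m * m := by
    intro m
    rw [Nat.mul_div_cancel' (Nat.even_mul_pred_self m).two_dvd]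
    cases m with
    | zero => rfl
    | succ m => simp; ring
  have h6 : 2 * ∑ s, μ s * (μ s - 1) / 2 + ∑ s, μ s = ∑ s, μ s * μ s := by
    rw [Finset.mul_sum, ← Finset.sum_add_distrib]
    exact Finset.sum_congr rfl fun s _ => h5 _
  have h7 := h5 n
  omega

/-- The `q`-factorial. -/
def qFact (q r : ℕ) : ℕ := ∏ j ∈ Finset.range r, ∑ l ∈ Finset.range (j + 1), q ^ l

theorem qFact_pos (q r : ℕ) : 0 < qFact q r :=
  Finset.prod_pos fun j _ => by
    rw [Finset.sum_range_succ']; simp

theorem card_GL_eq_qFact (F : Type*) [Field F] [Fintype F] (n : ℕ) :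
    Nat.card (GL (Fin n) F) = Fintype.card F ^ (n * (n - 1) / 2) * (Fintype.card F - 1) ^ n *
      qFact (Fintype.card F) n := by
  rw [card_GL_eq, qFact, mul_assoc]
  congr 1
  simp_rw [← pred_mul_geom _ _ Fintype.card_pos]
  rw [Finset.prod_mul_distrib, Finset.prod_const, Finset.card_range]

theorem card_parabolicGL {μ : Fin n → ℕ} (hμ : ∑ i, μ i = n) :
    Nat.card (parabolicGL n F μ) = Fintype.card F ^ (n * (n - 1) / 2) * (Fintype.card F - 1) ^ n *
      ∏ i, qFact (Fintype.card F) (μ i) := by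
  let a : Fin n → Fin n := fun i => ⟨compLabel μ i, compLabel_lt hμ i⟩
  have ha : ∀ s, (Finset.univ.filter fun i => a i = s).card = μ s :=
    fun s => by simpa [a, Fin.ext_iff] using card_compLabel_eq hμ s
  have h := card_parab_fin (F := F) a
  have h1 : ∀ s, Nat.card (GL {i // a i = s} F) = Fintype.card F ^ (μ s * (μ s - 1) / 2) *
      (Fintype.card F - 1) ^ μ s * qFact (Fintype.card F) (μ s) := fun s => by
    rw [card_GL_congr, card_GL_eq_qFact, Fintype.card_subtype, ha]
  simp_rw [h1] at h
  rw [Finset.prod_mul_distrib, Finset.prod_mul_distrib, Finset.prod_pow_eq_pow_sum,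
    Finset.prod_pow_eq_pow_sum, hμ] at h
  rw [← card_pairs_lt a μ ha, pow_add]
  refine h.trans (by ring)

theorem index_parabolicGL {μ : Fin n → ℕ} (hμ : ∑ i, μ i = n) :
    Nat.card (GL (Fin n) F ⧸ parabolicGL n F μ) * ∏ i, qFact (Fintype.card F) (μ i) =
      qFact (Fintype.card F) n := by
  have h := Subgroup.card_eq_card_quotient_mul_card_subgroup (parabolicGL n F μ)
  rw [card_parabolicGL hμ, card_GL_eq_qFact] at h
  have h1 : 0 < Fintype.card F ^ (n * (n - 1) / 2) * (Fintype.card F - 1) ^ n :=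
    mul_pos (pow_pos Fintype.card_pos _) (pow_pos (Nat.sub_pos_of_lt Fintype.one_lt_card) _)
  apply Nat.eq_of_mul_eq_mul_left h1
  rw [h]; ring

theorem sum_sub_perm {ν : Fin n → ℕ} (hsum : ∑ i, ν i = n) (κ : Equiv.Perm (Fin n))
    (h : ∀ i : Fin n, (κ i).val ≤ ν i + i.val) : ∑ i, (ν i + i.val - (κ i).val) = n := by
  rw [Finset.sum_tsub_distrib _ (fun i _ => h i), Finset.sum_add_distrib, hsum,
    Equiv.sum_comp κ Fin.val, Nat.add_sub_cancel]

theorem qFact_eq_mul (q l j : ℕ) (h : j ≤ l) :
    qFact q l = qFact q (l - j) * ∏ k ∈ Finset.range j, ∑ i ∈ Finset.range (l - k), q ^ i := by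
  induction j with
  | zero => simp
  | succ j ih =>
    rw [ih (by omega), Finset.prod_range_succ, show l - j = (l - (j + 1)) + 1 by omega, qFact,
      Finset.prod_range_succ, ← qFact]
    ring

theorem sum_choose_two (n : ℕ) :
    ∑ j ∈ Finset.range n, ∑ k ∈ Finset.range j, k = n * (n - 1) * (n - 2) / 6 := by
  have h : ∀ n, 6 * ∑ j ∈ Finset.range n, ∑ k ∈ Finset.range j, k = n * (n - 1) * (n - 2) := by
    intro n
    induction n with
    | zero => simp
    | succ n ih =>
      rw [Finset.sum_range_succ, mul_add, ih, show 6 = 3 * 2 from rfl, mul_assoc 3, mul_comm 2,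
        Finset.sum_range_id_mul_two]
      rcases n with _ | _ | n
      · rfl
      · rfl
      · simp only [Nat.add_sub_cancel, show n + 1 + 1 - 2 = n from rfl,
          show n + 1 + 1 + 1 - 2 = n + 1 from rfl]
        ring
  rw [← h, Nat.mul_div_cancel_left _ (by norm_num)]

theorem unipotentCharacterGL_degree {ν : Fin n → ℕ} (hsum : ∑ i, ν i = n) :
    unipotentCharacterGL n F ν 1 * (Fintype.card F : ℂ) ^ (n * (n - 1) * (n - 2) / 6) *
        ∏ i : Fin n, (qFact (Fintype.card F) (ν i + i.val) : ℂ) =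
      (qFact (Fintype.card F) n : ℂ) *
        ∏ i : Fin n, ∏ j ∈ Finset.Ioi i,
          (((∑ l ∈ Finset.range (ν j + j.val), Fintype.card F ^ l : ℕ) : ℂ) -
            ((∑ l ∈ Finset.range (ν i + i.val), Fintype.card F ^ l : ℕ) : ℂ)) := by
  classical
  set q := Fintype.card F
  let Q : ℕ → ℂ := fun r => ((∑ l ∈ Finset.range r, q ^ l : ℕ) : ℂ)
  have hQ : ∀ l k, k ≤ l → (q : ℂ) ^ k * Q (l - k) = Q l - Q k := by
    intro l k h
    simp only [Q]
    rw [eq_sub_iff_add_eq, ← Nat.cast_pow, ← Nat.cast_mul, ← Nat.cast_add, Finset.mul_sum]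
    congr 1
    conv_rhs => rw [← Nat.add_sub_cancel' h, Finset.sum_range_add, add_comm]
    simp_rw [pow_add]
  have hP : ∀ l j, (q : ℂ) ^ (∑ k ∈ Finset.range j, k) * ∏ k ∈ Finset.range j, Q (l - k) =
      ∏ k ∈ Finset.range j, (Q l - Q k) := by
    intro l j
    by_cases h : j ≤ l
    · rw [← Finset.prod_pow_eq_pow_sum, ← Finset.prod_mul_distrib]
      exact Finset.prod_congr rfl fun k hk => hQ _ _ (by have := Finset.mem_range.mp hk; omega)
    · rw [Finset.prod_eq_zero (i := l) (by simpa using h) (by simp [Q]),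
        Finset.prod_eq_zero (i := l) (by simpa using h) (by simp), mul_zero]
  rw [← Matrix.det_vandermonde (fun i => Q (ν i + i.val)),
    Matrix.det_eval_matrixOfPolynomials_eq_det_vandermonde _
      (fun j : Fin n => ∏ k ∈ Finset.range j.val, (Polynomial.X - Polynomial.C (Q k)))
      (fun j => by rw [Polynomial.natDegree_finsetProd_X_sub_C_eq_card, Finset.card_range])
      (fun j => Polynomial.monic_prod_X_sub_C _ _), ← Matrix.det_transpose, Matrix.det_apply',
    unipotentCharacterGL, Finset.sum_mul, Finset.sum_mul, Finset.mul_sum]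
  refine Finset.sum_congr rfl fun κ _ => ?_
  simp only [Matrix.transpose_apply, Matrix.of_apply, Polynomial.eval_prod, Polynomial.eval_sub,
    Polynomial.eval_X, Polynomial.eval_C, ← hP]
  rw [Finset.prod_mul_distrib, Finset.prod_pow_eq_pow_sum,
    Equiv.sum_comp κ (fun j : Fin n => ∑ k ∈ Finset.range j.val, k),
    Fin.sum_univ_eq_sum_range (fun j => ∑ k ∈ Finset.range j, k), sum_choose_two]
  split_ifs with h
  · have h1 := index_parabolicGL (F := F) (sum_sub_perm hsum κ h)
    rw [← h1, fixedPointCharacter, MulAction.fixedBy_one_eq_univ, Nat.card_univ,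
      Finset.prod_congr rfl fun i _ => congrArg Nat.cast (qFact_eq_mul q _ _ (h i))]
    simp only [Q]
    push_cast
    rw [Finset.prod_mul_distrib]
    ring
  · push Not at h
    obtain ⟨i, hi⟩ := h
    rw [Finset.prod_eq_zero (f := fun i => ∏ k ∈ Finset.range (κ i).val, Q (ν i + i.val - k))
      (Finset.mem_univ i) (Finset.prod_eq_zero (Finset.mem_range.mpr hi) (by simp [Q]))]
    simp

theorem strictMono_add {ν : Fin n → ℕ} (h : Monotone ν) : StrictMono fun i => ν i + i.val :=
  fun _ _ hij => Nat.add_lt_add_of_le_of_lt (h hij.le) hij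

theorem inner_unipotentCharacterGL [Fintype (GL (Fin n) F)] {ν μ : Fin n → ℕ} (hν : Monotone ν)
    (hνs : ∑ i, ν i = n) (hμ : Monotone μ) (hμs : ∑ i, μ i = n) :
    classInner (unipotentCharacterGL n F ν) (unipotentCharacterGL n F μ) =
      if ν = μ then 1 else 0 := by
  classical
  have h := table_orthogonality (strictMono_add hν) (strictMono_add hμ)
  have h1 : ((fun i => ν i + i.val) = fun i => μ i + i.val) ↔ ν = μ := by
    simp [funext_iff]
  simp only [h1] at h
  have h2 := congrArg (Int.cast : ℤ → ℂ) h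
  push_cast at h2
  rw [← h2]
  simp only [classInner, unipotentCharacterGL, map_sum, Finset.sum_mul_sum]
  rw [Finset.sum_comm, Finset.mul_sum]
  refine Finset.sum_congr rfl fun κ _ => ?_
  rw [Finset.sum_comm, Finset.mul_sum]
  refine Finset.sum_congr rfl fun κ' _ => ?_
  by_cases h3 : ∀ i, (κ i).val ≤ ν i + i.val
  · by_cases h4 : ∀ i, (κ' i).val ≤ μ i + i.val
    · rw [if_pos ⟨h3, h4⟩, ← card_doubleCoset_young (sum_sub_perm hνs κ h3) (sum_sub_perm hμs κ' h4),
        youngSubgroup_eq, youngSubgroup_eq,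
        ← card_doubleCoset_parab (F := F) (compLabel_monotone _) (compLabel_monotone _),
        ← inner_fixedPointCharacter, Finset.mul_sum, Finset.mul_sum, Finset.mul_sum]
      refine Finset.sum_congr rfl fun g _ => ?_
      rw [if_pos h3, if_pos h4, map_mul, map_intCast, fixedPointCharacter, fixedPointCharacter,
        map_natCast, fixedPointCharacter, fixedPointCharacter, parabolicGL_eq, parabolicGL_eq]
      ring
    · simp [h4]
  · simp [h3]

theorem isGen_unipotentCharacterGL (ν : Fin n → ℕ) :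
    IsGeneralizedCharacter (GL (Fin n) F) (unipotentCharacterGL n F ν) := by
  classical
  have : unipotentCharacterGL n F ν = ∑ κ : Equiv.Perm (Fin n),
      if ∀ i : Fin n, (κ i).val ≤ ν i + i.val then (Equiv.Perm.sign κ : ℤ) •
        fixedPointCharacter (parabolicGL n F fun i => ν i + i.val - (κ i).val) else 0 := by
    funext g
    rw [unipotentCharacterGL, Finset.sum_apply]
    refine Finset.sum_congr rfl fun κ _ => ?_
    split_ifs <;> simp
  rw [this]
  refine CharLib.isGen_sum _ fun κ _ => ?_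
  split_ifs
  · exact CharLib.isGen_zsmul (CharLib.isGen_of_isChar (CharLib.isChar_fixedBy _)) _
  · exact CharLib.isGen_zero

end Card

end Cfsg.Agent.GLn
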