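import Cfsg.Agent.GLn.MinIndex

/-! Minimal degree of a transitive permutation representation of `SL_n(q)`. -/

open Matrix Finset
open scoped ComplexConjugate InnerProductSpace

namespace Cfsg.Agent.GLn

variable {F : Type*} [Field F] [Fintype F] {m : ℕ}

local notation "SLm" => Matrix.SpecialLinearGroup (Fin (m + 3)) F

/-- The space of functions with sum zero. -/
noncomputable def sumZero (Ω : Type*) [Fintype Ω] : Submodule ℂ (EuclideanSpace ℂ Ω) :=
  LinearMap.ker (∑ ω, EuclideanSpace.projₗ ω)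

theorem mem_sumZero {Ω : Type*} [Fintype Ω] {x : EuclideanSpace ℂ Ω} :
    x ∈ sumZero Ω ↔ ∑ ω, x ω = 0 := by simp [sumZero, LinearMap.sum_apply]

theorem finrank_sumZero (Ω : Type*) [Fintype Ω] [Nonempty Ω] :
    Module.finrank ℂ (sumZero Ω) < Fintype.card Ω := by
  rw [← finrank_euclideanSpace (𝕜 := ℂ)]
  refine Submodule.finrank_lt fun h => ?_
  have := mem_sumZero.mp (h ▸ Submodule.mem_top (x := WithLp.toLp 2 fun _ : Ω => (1 : ℂ)))
  simp at this

/-- The permutation representation on functions with sum zero. -/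
noncomputable def permZero (G Ω : Type*) [Group G] [Fintype Ω] [MulAction G Ω] :
    Representation ℂ G (sumZero Ω) where
  toFun g :=
    { toFun := fun x => ⟨WithLp.toLp 2 fun ω => x.1 (g⁻¹ • ω), mem_sumZero.mpr
        ((Equiv.sum_comp (MulAction.toPerm g⁻¹) fun ω => x.1 ω).trans (mem_sumZero.mp x.2))⟩
      map_add' := fun _ _ => rfl
      map_smul' := fun _ _ => rfl }
  map_one' := by ext x ω; simp
  map_mul' g h := by
    ext x ω
    change x.1 ((g * h)⁻¹ • ω) = x.1 (h⁻¹ • g⁻¹ • ω)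
    rw [_root_.mul_inv_rev, mul_smul]

theorem permZero_apply {G Ω : Type*} [Group G] [Fintype Ω] [MulAction G Ω] (g : G)
    (x : sumZero Ω) (ω : Ω) : (permZero G Ω g x).1 ω = x.1 (g⁻¹ • ω) := rfl

theorem isUni_permZero (G Ω : Type*) [Group G] [Fintype Ω] [MulAction G Ω] :
    IsUni (V := sumZero Ω) (permZero G Ω) := fun g x y => by
  simp only [Submodule.coe_inner, PiLp.inner_apply, permZero_apply]
  exact Equiv.sum_comp (MulAction.toPerm g⁻¹) fun ω => ⟪x.1 ω, y.1 ω⟫_ℂ

theorem le_card_of_pretransitive (hexc : ¬ (m = 1 ∧ Fintype.card F = 2)) (Ω : Type*) [Finite Ω]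
    [Nontrivial Ω] [MulAction SLm Ω] [MulAction.IsPretransitive SLm Ω] :
    ∑ i ∈ range (m + 3), Nat.card F ^ i ≤ Nat.card Ω := by
  classical
  have := Fintype.ofFinite Ω
  by_contra! hlt
  have hd : Module.finrank ℂ (sumZero Ω) < ∑ i ∈ range (m + 3), Nat.card F ^ i - 1 := by
    have := finrank_sumZero Ω
    rw [← Nat.card_eq_fintype_card] at this
    omega
  obtain ⟨ψ, hψ⟩ : ∃ ψ : AddChar F ℂ, ψ ≠ 1 := by
    have := AddChar.FiniteField.primitiveChar_to_Complex_isPrimitive F (a := 1) one_ne_zero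
    exact ⟨_, this⟩
  have hρ := isUni_permZero SLm Ω
  let δ : Ω → Ω → sumZero Ω := fun a b => ⟨WithLp.toLp 2 (Pi.single a 1 - Pi.single b 1),
    mem_sumZero.mpr (by simp)⟩
  have hG : ∀ x, fixSub (permZero SLm Ω) x = ⊤ → x = 0 := fun x hx => by
    have h1 : ∀ a b, x.1 a = x.1 b := fun a b => by
      obtain ⟨g, rfl⟩ := MulAction.exists_smul_eq SLm a b
      have hg : permZero SLm Ω g x = x := mem_fixSub.mp (hx ▸ Subgroup.mem_top g)
      conv_rhs => rw [← hg, permZero_apply, inv_smul_smul]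
    ext a
    have := mem_sumZero.mp x.2
    rw [sum_congr rfl fun b _ => h1 b a] at this
    simpa using this
  obtain ⟨ω, ω', hω⟩ := exists_pair_ne Ω
  have hx : δ ω ω' ≠ 0 := fun e => by simpa [δ, hω] using congrArg (fun x => x.1 ω) e
  have hμ : ¬ MuTriv (permZero SLm Ω) ψ := fun h =>
    absurd (hρ.le_finrank_of_muTriv hψ h hG hx) hd.not_ge
  have hA : ∀ σ, (∀ g : SLm, g.1 *ᵥ ev F 0 = ev F 0 → permZero SLm Ω g σ = σ) → σ = 0 :=
    fun σ h => by
      by_contra hne
      exact absurd (hρ.le_finrank_of_fix (fun e => hne (hG _ e)) h) hd.not_ge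
  have key : (∀ x ∈ wt (permZero SLm Ω) ψ (ev F 0) 0, x = 0) →
      (∀ v w h, v ≠ 0 → w ≠ 0 → trv v w h ∉ MulAction.stabilizer SLm ω) ∧
        ∀ g : SLm, ∃ w h, trv (ev F 0) w h * g ∈ MulAction.stabilizer SLm ω := fun h0 => by
    have h1 : ∀ a b : Ω, ∃ w h, trv (ev F (0 : Fin (m + 3))) w h • a = b := fun a b => by
      by_contra! hab
      have h2 := congrArg (fun x => x.1 b) (h0 _ (wsum_mem _ _ (δ a b)))
      simp only [wsum_apply, dotProduct_zero, neg_zero, AddChar.map_zero_eq_one, one_smul,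
        AddSubmonoidClass.coe_finsetSum, WithLp.ofLp_sum, Finset.sum_apply, permZero_apply, δ,
        Pi.sub_apply, Pi.single_apply, inv_smul_eq_iff, (hab _ _).symm, if_false, zero_sub,
        sum_neg_distrib, sum_boole] at h2
      have h3 := Finset.card_eq_zero.mp (Nat.cast_eq_zero.mp (neg_eq_zero.mp h2))
      exact filter_eq_empty_iff.mp h3 (mem_univ 0) (by simp [trv_zero_right])
    refine ⟨fun v w h hv hw hm => ?_, fun g => ?_⟩
    · obtain ⟨g, hg⟩ := exists_sl_single (n := m + 3) (by omega) hv (w := ev F 0) (by simp)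
      obtain ⟨w', hw', h', e⟩ : ∃ w' : Fin (m + 3) → F, w' ≠ 0 ∧ ∃ h' : w' ⬝ᵥ ev F 0 = 0,
          trv (ev F 0) w' h' = g * trv v w h * g⁻¹ := by
        refine ⟨w ᵥ* (g⁻¹).1, fun e => hw ?_, by rw [← hg, vecMul_inv_dot_mulVec, h], ?_⟩
        · have := congrArg (· ᵥ* g.1) e
          simpa only [vecMul_vecMul, ← Matrix.SpecialLinearGroup.coe_mul, inv_mul_cancel,
            Matrix.SpecialLinearGroup.coe_one, vecMul_one, zero_vecMul] using this
        · rw [conj_trv]; exact trv_congr _ _ (by rw [hg])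
      have h2 : ∀ a : Ω, (trv (ev F 0) w' h')⁻¹ • a = a := fun a => by
        obtain ⟨w₁, h₁, rfl⟩ := h1 (g • ω) a
        have hc : trv _ w' h' * trv _ w₁ h₁ = trv _ w₁ h₁ * trv _ w' h' := by
          rw [← trv_add_right h' h₁ (by rw [add_dotProduct, h', h₁, add_zero]),
            ← trv_add_right h₁ h' (by rw [add_dotProduct, h', h₁, add_zero])]
          exact trv_congr _ _ (by rw [add_comm w'])
        rw [inv_smul_eq_iff, ← mul_smul (trv _ w' h'), hc, mul_smul, e, mul_smul, inv_smul_smul,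
          mul_smul, MulAction.mem_stabilizer_iff.mp hm]
      obtain ⟨j, hj⟩ := Function.ne_iff.mp hw'
      obtain ⟨t, ht⟩ := exists_apply_mul_ne_one hψ hj
      have hj0 : j ≠ 0 := by rintro rfl; exact hj (by simpa using h')
      have ht0 : t ≠ 0 := by rintro rfl; simp at ht
      obtain ⟨y, hy, hy0⟩ := exists_mem_wt hψ (by simp) (fun e => hx (hG _ e)) (a := ev F 0)
        (b := Pi.single j t) (li_pair_of_coord 0 j (by simp [hj0, ht0]))
      have h3 := hy w' h'
      have h4 : permZero SLm Ω (trv (ev F 0) w' h') y = y := by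
        ext a; rw [permZero_apply, h2]
      rw [h4, dotProduct_single, mul_comm] at h3
      exact ht (smul_left_injective ℂ hy0 (h3.symm.trans (one_smul _ _).symm))
    · obtain ⟨w, h, e⟩ := h1 (g • ω) ω
      exact ⟨w, h, by rw [MulAction.mem_stabilizer_iff, mul_smul, e]⟩
  have hq : 1 < Fintype.card F := Fintype.one_lt_card
  have hpow : ∀ k, (∀ c : F, c ≠ 0 → c ^ k = 1) → Fintype.card F - 1 ∣ k := fun k h =>
    (FiniteField.forall_pow_eq_one_iff F k).mp fun c => Units.ext (by simpa using h c c.ne_zero)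
  have hcard := FiniteField.cast_card_eq_zero F
  by_cases h3 : m = 0 ∧ ∀ c : F, c ≠ 0 → c ^ 3 = 1
  · obtain ⟨rfl, h3⟩ := h3
    obtain ⟨h4, h5⟩ := key fun x hx => hA x fun g hg => fix_of_wt_three hρ hψ hd hμ hx hg
    refine false_of_three ?_ h4 h5
    rcases (Nat.dvd_prime Nat.prime_three).mp (hpow 3 h3) with h | h
    · rw [show Fintype.card F = 2 by omega] at hcard; exact_mod_cast hcard
    · rw [show Fintype.card F = 2 ^ 2 by omega] at hcard
      exact pow_eq_zero_iff two_ne_zero |>.mp (by exact_mod_cast hcard)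
  by_cases h4 : m = 1 ∧ ∀ c : F, c ≠ 0 → c ^ 2 = 1
  · obtain ⟨rfl, h4⟩ := h4
    obtain ⟨h5, h6⟩ := key fun x hx => hA x fun g hg => 
      fix_of_wt_four (V := sumZero Ω) (ρ := permZero _ Ω) hψ h4 hd hμ hx hg
    refine false_of_four (fun h2 => ?_) h5 h6
    have := (Nat.dvd_prime Nat.prime_two).mp (hpow 2 h4)
    rw [show Fintype.card F = 3 by omega] at hcard
    exact one_ne_zero (α := F) (by linear_combination (by exact_mod_cast hcard : (3 : F) = 0) - h2)
  push Not at h3 h4
  exact hμ (muTriv_of_finrank (finrank_wt_le_one (V := sumZero Ω) hψ hd) h3 h4)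

end Cfsg.Agent.GLn
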