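import Cfsg.Agent.GLn.PronRel
import Cfsg.Agent.GLn.PronBN
import Cfsg.Agent.Cl.RGD
import Cfsg.Agent.Polar.Std

/-!
Subgroups of odd index in `SU_{2^w}(q)` are pronormal.
-/

set_option autoImplicit false

open Matrix

namespace Cfsg.Agent.GLn

open Cfsg.Agent.Polar Cfsg.Agent.Polar.PQ Cfsg.Agent.Cl Cfsg.Agent.RG Cfsg.Agent.Forms

section Even

variable {F : Type*} [Field F] {τ : F →+* F} {π : FP F τ}
variable {V : Type*} [AddCommGroup V] [Module F V] {P : PQ π V} {m : ℕ} {sh : Bool}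

theorem pronormal_of_frame [CharP F 2] (Φ : Frame P m sh) (hm : sh = false → 1 ≤ m) (hP : P.ND)
    (h0 : ∀ x ∈ Φ.V0, x = 0) {G' : Type*} [Group G'] [Finite G'] (φ : G' →* P.Iso)
    (hφ : Function.Injective φ) (hr : φ.range = P.EG) (H : Subgroup G') (hH : Odd H.index) :
    IsPronormal H := by
  refine pronormal_of_isRGD (Φ.isRGD0 hm) (rt_ind fun a b h h' => ?_) (fun s hs t ht => ?_)
    (fun t ht k hk => ?_) φ hφ (hr.trans (Φ.US_X0 hP).symm) H hH
  · rintro ⟨g, hg⟩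
    refine ⟨1, Subtype.ext ?_⟩
    change g ^ 2 ^ 1 = 1
    rw [pow_one, sq]
    rcases Φ.mem_X0 hg with ⟨-, x, hx, c, h3, rfl⟩ | ⟨-, t, rfl⟩
    · obtain rfl := h0 x hx
      rw [h3.eich_mul h3, CharTwo.add_self_eq_zero]
      simp [eich_zero]
    · rw [← eich_long_add (Φ.ok h), CharTwo.add_self_eq_zero, zero_smul, eich_zero]
  · refine Φ.iso_ext (fun a => ?_) (fun x hx => by rw [h0 x hx, smul_zero, smul_zero])
    obtain ⟨c, -, hc⟩ := Φ.H0_le_Dg0 hm hs a
    obtain ⟨d, -, hd⟩ := Φ.H0_le_Dg0 hm ht a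
    simp only [id] at hc hd
    rw [mul_smul, mul_smul, hc, hd, act_smul, act_smul, hc, hd, smul_comm]
  · refine Φ.iso_ext (fun a => ?_) (fun x hx => by rw [h0 x hx, smul_zero, smul_zero])
    obtain ⟨c, -, hc⟩ := Φ.H0_le_Dg0 hm ht a
    simp only [id] at hc
    have h1 : ∀ j : ℕ, (t ^ j) • Φ.v a = c ^ j • Φ.v a := fun j => by
      induction j with
      | zero => simp
      | succ j ih => rw [pow_succ', mul_smul, ih, act_smul, hc, smul_smul, pow_succ]
    have h2 := h1 (2 ^ k)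
    rw [hk, one_smul] at h2
    have h3 := congrArg (fun x => P.B x (Φ.d a)) h2
    simp only [B_smul_left, (Φ.hyp a).pair, mul_one] at h3
    have h4 : (c - 1) ^ 2 ^ k = 0 := by rw [sub_pow_char_pow, one_pow, ← h3, sub_self]
    rw [hc, sub_eq_zero.1 (pow_eq_zero_iff (by positivity) |>.1 h4), one_smul, one_smul]

theorem exists_frame_uStd [Fintype F] {q : ℕ} (hF : Fintype.card F = q ^ 2) (m : ℕ) :
    ∃ Φ : Frame (uStd hF (2 * m + 2)) m true, ∀ x ∈ Φ.V0, x = 0 := by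
  obtain ⟨ε, hε⟩ := exists_norm_eq hF (-1) (by simp)
  obtain ⟨ν, hν⟩ := exists_trace_one hF
  obtain ⟨θ, hθ⟩ := exists_frobq_ne hF
  have hε0 : frobq hF ε ≠ 0 := by
    intro h; rw [h, mul_zero] at hε; exact one_ne_zero (neg_eq_zero.1 hε.symm)
  let v : Ix m → (Fin (2 * m + 2) → F) := fun a =>
    if (a : ℕ) ≤ m then Pi.single a 1 + Pi.single a.rev ε
    else Pi.single a.rev (1 - ν) + Pi.single a (-(ν * ε))
  have hB : ∀ (x : Fin (2 * m + 2) → F) (a : Fin (2 * m + 2)) (c : F),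
      (uStd hF (2 * m + 2)).B x (Pi.single a c) = x a * frobq hF c := by
    intro x a c
    change ∑ i, x i * frobq hF ((Pi.single a c : Fin (2 * m + 2) → F) i) = _
    rw [Finset.sum_eq_single a]
    · simp
    · intro b _ hb; simp [hb]
    · simp
  have hrev : ∀ a : Ix m, a.rev ≠ a := fun a h => by
    have := congrArg Fin.val h
    rw [Fin.val_rev] at this
    omega
  have hv1 : ∀ a : Ix m, (a : ℕ) ≤ m → v a = Pi.single a 1 + Pi.single a.rev ε :=
    fun a h => if_pos h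
  have hv2 : ∀ a : Ix m, (a : ℕ) ≤ m → v a.rev = Pi.single a (1 - ν) +
      Pi.single a.rev (-(ν * ε)) := fun a h => by
    have : ¬ (a.rev : ℕ) ≤ m := by rw [Fin.val_rev]; omega
    simp only [v, if_neg this, Fin.rev_rev]
  have hcases : ∀ a : Ix m, (a : ℕ) ≤ m ∨ ∃ b : Ix m, (b : ℕ) ≤ m ∧ a = b.rev := fun a => by
    by_cases h : (a : ℕ) ≤ m
    · exact Or.inl h
    · exact Or.inr ⟨a.rev, by rw [Fin.val_rev]; omega, by simp⟩
  have hself : ∀ a, (uStd hF (2 * m + 2)).B (v a) (v a) = 0 := fun a => by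
    rcases hcases a with h | ⟨b, h, rfl⟩
    · rw [hv1 a h, map_add, hB, hB]
      simp [hrev a, (hrev a).symm, hε]
    · rw [hv2 b h, map_add, hB, hB]
      simp only [Pi.add_apply, Pi.single_eq_same, Pi.single_eq_of_ne (hrev b),
        Pi.single_eq_of_ne (hrev b).symm, map_sub, map_one, map_neg, map_mul]
      linear_combination (ν * frobq hF ν) * hε - hν
  have hsupp : ∀ a b : Ix m, b ≠ a → b ≠ a.rev → v a b = 0 := fun a b h1 h2 => by
    simp only [v]
    split_ifs <;> simp [h1, h2]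
  have hperp : ∀ x ∈ (uStd hF (2 * m + 2)).perp (Set.range v), x = 0 := by
    intro x hx
    have key : ∀ a : Ix m, (a : ℕ) ≤ m → x a = 0 ∧ x a.rev = 0 := fun a h => by
      have h1 := hx _ ⟨a, rfl⟩
      have h2 := hx _ ⟨a.rev, rfl⟩
      rw [hv1 a h, map_add, hB, hB, map_one] at h1
      rw [hv2 a h, map_add, hB, hB, map_sub, map_one, map_neg, map_mul] at h2
      have h3 : x a = 0 := by linear_combination h2 + frobq hF ν * h1
      rw [h3, zero_mul, zero_add] at h1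
      exact ⟨h3, (mul_eq_zero.1 h1).resolve_right hε0⟩
    ext a
    rcases hcases a with h | ⟨b, h, rfl⟩
    exacts [(key a h).1, (key b h).2]
  refine ⟨⟨v, fun a => u_sing_iff.2 (hself a), fun a b hb => ?_, fun a h => ?_,
    fun x hx _ => hperp x hx, ⟨fun _ => ⟨0, zero_mem _, θ - frobq hF θ, sub_ne_zero.2 hθ.symm,
      u_QEq_iff.2 (by simp [frobq_frobq])⟩, fun _ => rfl⟩⟩, hperp⟩
  · by_cases hab : b = a
    · rw [hab, hself]
    have h1 := hsupp a b hab hb
    have h2 := hsupp a b.rev (fun h => hb (by rw [← h, Fin.rev_rev]))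
      (fun h => hab (Fin.rev_injective h))
    simp only [v]
    split_ifs <;> simp only [map_add, hB] <;> simp only [v] at h1 h2 <;> simp_all
  · rw [hv2 a h, hv1 a h, map_add, hB, hB]
    simp only [Pi.add_apply, Pi.single_eq_same, Pi.single_eq_of_ne (hrev a),
      Pi.single_eq_of_ne (hrev a).symm, map_sub, map_one, map_neg, map_mul]
    linear_combination (-frobq hF ν) * hε

theorem pronormal_SU_even [Fintype F] [CharP F 2] {q : ℕ} (hF : Fintype.card F = q ^ 2) (m : ℕ)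
    (H : Subgroup (SU (2 * m + 2) F q)) (hH : Odd H.index) : IsPronormal H := by
  obtain ⟨Φ, hΦ⟩ := exists_frame_uStd hF m
  exact pronormal_of_frame Φ (fun h => by simp at h) (uStd_nd hF _) hΦ (suHom hF _)
    (suHom_injective hF _) (range_suHom hF _) H hH

end Even

section Odd

variable {F : Type*} [Field F] {ι κ : Type*} [Fintype ι] [DecidableEq ι] [Fintype κ] [DecidableEq κ]

/-- The unitary group of the standard form, as a matrix group. -/
def uGL (τ : F →+* F) (ι : Type*) [Fintype ι] [DecidableEq ι] : Subgroup (GL ι F) where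
  carrier := {g | g.1ᵀ * g.1.map τ = 1}
  one_mem' := by simp
  mul_mem' := fun {a b} ha hb => by
    change (a.1 * b.1)ᵀ * (a.1 * b.1).map τ = 1
    change a.1ᵀ * a.1.map τ = 1 at ha
    rw [transpose_mul, Matrix.map_mul, mul_assoc, ← mul_assoc a.1ᵀ, ha, one_mul]
    exact hb
  inv_mem' := fun {a} ha => by
    change (a⁻¹).1ᵀ * (a⁻¹).1.map τ = 1
    change a.1ᵀ * a.1.map τ = 1 at ha
    calc (a⁻¹).1ᵀ * (a⁻¹).1.map τ = (a⁻¹).1ᵀ * (a.1ᵀ * a.1.map τ) * (a⁻¹).1.map τ := by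
          rw [ha, mul_one]
      _ = 1 := by
        rw [← mul_assoc, ← transpose_mul, Units.mul_inv, transpose_one,
          one_mul, ← Matrix.map_mul, Units.mul_inv, Matrix.map_one _ (map_zero τ) (map_one τ)]

theorem mem_uGL {τ : F →+* F} {g : GL ι F} : g ∈ uGL τ ι ↔ g.1ᵀ * g.1.map τ = 1 := Iff.rfl

theorem neg_one_mem_uGL (τ : F →+* F) : (-1 : GL ι F) ∈ uGL τ ι := by
  rw [mem_uGL, Units.val_neg, Units.val_one, Matrix.map_neg _ (map_neg τ),
    Matrix.map_one _ (map_zero τ) (map_one τ)]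
  simp

theorem blkGL_mem_uGL (τ : F →+* F) (a b : GL ι F) :
    blkGL (a, b) ∈ uGL τ (ι ⊕ ι) ↔ a ∈ uGL τ ι ∧ b ∈ uGL τ ι := by
  rw [mem_uGL, mem_uGL, mem_uGL, blkGL_val, fromBlocks_transpose, fromBlocks_map,
    fromBlocks_multiply, ← fromBlocks_one, fromBlocks_inj]
  simp

theorem swapGL_mem_uGL (τ : F →+* F) : swapGL ∈ uGL τ (ι ⊕ ι) := by
  rw [mem_uGL, swapGL_val, fromBlocks_transpose, fromBlocks_map, fromBlocks_multiply]
  simp

theorem reindex_mem_uGL (τ : F →+* F) (e : ι ≃ κ) (g : GL ι F) :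
    Units.mapEquiv (reindexAlgEquiv F F e).toMulEquiv g ∈ uGL τ κ ↔ g ∈ uGL τ ι := by
  rw [mem_uGL, mem_uGL]
  change reindexAlgEquiv F F e g.1ᵀ * reindexAlgEquiv F F e (g.1.map τ) = 1 ↔ _
  rw [← map_mul, map_eq_one_iff _ (reindexAlgEquiv F F e).injective]

open Cfsg.Agent.SL2 in
theorem exists_rigidIn_uGL_two [Fintype F] {q : ℕ} (hF : Fintype.card F = q ^ 2)
    (h2 : (2 : F) ≠ 0) : ∃ W, RigidIn (uGL (frobq hF) (Fin 2)) W := by
  obtain ⟨i, hi⟩ : IsSquare (-1 : F) := by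
    rw [FiniteField.isSquare_neg_one_iff, hF, Nat.pow_mod]
    have : q % 4 < 4 := Nat.mod_lt _ (by norm_num)
    interval_cases q % 4 <;> simp
  have hi0 : i ≠ 0 := by rintro rfl; simp at hi
  obtain ⟨a, b, hab, ha, hb⟩ : ∃ a b : F, a * a + b * b = -1 ∧ frobq hF a = -a ∧
      frobq hF b = -b := by
    have h1 : (frobq hF i - i) * (frobq hF i + i) = 0 := by
      have := congrArg (frobq hF) hi
      rw [map_neg, map_one, map_mul] at this
      linear_combination hi - this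
    rcases mul_eq_zero.1 h1 with h | h
    · obtain ⟨θ, hθ⟩ := exists_frobq_ne hF
      obtain ⟨δ, hδ, hδ0⟩ : ∃ δ : F, frobq hF δ = -δ ∧ δ ≠ 0 :=
        ⟨θ - frobq hF θ, by simp [frobq_frobq], sub_ne_zero.2 hθ.symm⟩
      refine ⟨(δ - δ⁻¹) / 2, (δ + δ⁻¹) / (2 * i), ?_, ?_, ?_⟩
      · field_simp
        linear_combination (-(δ ^ 2 - 1) ^ 2 - 4 * δ ^ 2) * hi
      · rw [map_div₀, map_sub, map_inv₀, hδ, map_ofNat, inv_neg]; ring
      · rw [map_div₀, map_add, map_inv₀, hδ, map_mul, map_ofNat, sub_eq_zero.1 h, inv_neg]; ring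
    · exact ⟨0, i, by rw [hi]; simp, by simp, eq_neg_of_add_eq_zero_left h⟩
  obtain ⟨w, hw⟩ : ∃ w : SLT F, w.1 = !![a, b; b, -a] :=
    ⟨mkSL _ (by rw [det_fin_two_of]; linear_combination -hab), rfl⟩
  have hQ : QPair (wS : SLT F) w := ⟨h2, trace_wS, by
    rw [mul_inv_eq_iff_eq_mul, inv_eq_neg_of_trace trace_wS]
    apply sl_ext
    change w.1 * (wS : SLT F).1 = -(wS : SLT F).1 * w.1
    rw [hw, wS_val]
    ext i j
    fin_cases i <;> fin_cases j <;> simp⟩
  obtain ⟨e, he⟩ := exists_norm_eq hF 2⁻¹ (by rw [map_inv₀, map_ofNat])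
  have he0 : e ≠ 0 := by
    rintro rfl
    rw [zero_mul] at he
    exact inv_ne_zero h2 he.symm
  have he' : 2 * (e * frobq hF e) = 1 := by rw [he, mul_inv_cancel₀ h2]
  obtain ⟨y, hy⟩ : ∃ y : GLT F, y.1 = e • 1 + e • (wS : SLT F).1 :=
    ⟨mkGL _ (by
      rw [det_comb, (wS : SLT F).2, trace_wS]
      have : e ^ 2 + 0 * e * e + 1 * e ^ 2 = 2 * e ^ 2 := by ring
      rw [this]
      exact mul_ne_zero h2 (pow_ne_zero 2 he0)), rfl⟩
  refine exists_rigidIn_two hQ ?_ ?_ (y := y) ?_ he0 hy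
  · change (wS : SLT F).1ᵀ * (wS : SLT F).1.map (frobq hF) = 1
    rw [wS_val]
    ext i j
    fin_cases i <;> fin_cases j <;> simp [mul_apply, Fin.sum_univ_two]
  · change w.1ᵀ * w.1.map (frobq hF) = 1
    rw [hw]
    ext i j
    fin_cases i <;> fin_cases j <;> simp [mul_apply, Fin.sum_univ_two, ha, hb]
    · linear_combination -hab
    · ring
    · ring
    · linear_combination -hab
  · rw [mem_uGL, hy, wS_val]
    ext i j
    fin_cases i <;> fin_cases j <;> simp [mul_apply, Fin.sum_univ_two]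
    · linear_combination he'
    · linear_combination he'

theorem exists_rigidIn_uGL_pow [Fintype F] {q : ℕ} (hF : Fintype.card F = q ^ 2)
    (h2 : (2 : F) ≠ 0) (k : ℕ) : ∃ W : Subgroup (GL (Fin (2 ^ (k + 2))) F),
      RigidIn (uGL (frobq hF) _) W ∧ ∀ g ∈ W, g.1.det = 1 := by
  have step : ∀ j : ℕ, (∃ W : Subgroup (GL (Fin (2 ^ (j + 1))) F), RigidIn (uGL (frobq hF) _) W) →
      ∃ W : Subgroup (GL (Fin (2 ^ (j + 2))) F), RigidIn (uGL (frobq hF) _) W ∧
        ∀ g ∈ W, g.1.det = 1 := by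
    rintro j ⟨W, hW⟩
    have : Nontrivial (Fin (2 ^ (j + 1))) :=
      Fin.nontrivial_iff_two_le.2 (Nat.one_lt_two_pow (by omega))
    obtain ⟨W', h1, h2⟩ := hW.step h2 (by rw [Fintype.card_fin, pow_succ]; simp)
      (neg_one_mem_uGL _) (blkGL_mem_uGL _) (swapGL_mem_uGL _)
    obtain ⟨W'', h3, h4⟩ := h1.reindex (κ := Fin (2 ^ (j + 2)))
      (finSumFinEquiv.trans (finCongr (by ring))) (reindex_mem_uGL _ _)
    exact ⟨W'', h3, h4 h2⟩
  induction k with
  | zero => exact step 0 (exists_rigidIn_uGL_two hF h2)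
  | succ k ih =>
    obtain ⟨W, hW, -⟩ := ih
    exact step (k + 1) ⟨W, hW⟩

theorem mem_SU_iff_uGL [Fintype F] {q n : ℕ} (hF : Fintype.card F = q ^ 2)
    {g : Matrix.SpecialLinearGroup (Fin n) F} :
    g ∈ SU n F q ↔ Matrix.SpecialLinearGroup.toGL g ∈ uGL (frobq hF) (Fin n) := by
  have key : ∀ u v : Fin n → F, hermForm n F q (g.1 *ᵥ u) (g.1 *ᵥ v) =
      u ⬝ᵥ ((g.1ᵀ * g.1.map (frobq hF)) *ᵥ (frobq hF ∘ v)) := by
    intro u v
    rw [← mulVec_mulVec, dotProduct_mulVec, vecMul_transpose]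
    refine Finset.sum_congr rfl fun i _ => ?_
    rw [← RingHom.map_mulVec, frobq_apply]
  change (∀ u v, hermForm n F q (g.1 *ᵥ u) (g.1 *ᵥ v) = hermForm n F q u v) ↔
    g.1ᵀ * g.1.map (frobq hF) = 1
  constructor
  · intro h
    ext i j
    have := h (Pi.single i 1) (Pi.single j 1)
    rw [key] at this
    have e : (frobq hF ∘ (Pi.single j 1 : Fin n → F)) = Pi.single j 1 := by
      ext k; by_cases hk : k = j <;> simp [hk]
    rw [e, mulVec_single_one, single_one_dotProduct] at this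
    refine this.trans ?_
    change ∑ k, _ * frobq hF _ = _
    rw [Finset.sum_eq_single i]
    · by_cases hij : i = j <;> simp [hij, one_apply]
    · intro k _ hk; simp [hk]
    · simp
  · intro h u v
    rw [key, h, one_mulVec]
    rfl

theorem pronormal_SU_odd [Fintype F] {q : ℕ} (hF : Fintype.card F = q ^ 2) (h2 : (2 : F) ≠ 0)
    (k : ℕ) (H : Subgroup (SU (2 ^ (k + 2)) F q)) (hZ : Subgroup.center _ ≤ H)
    (hH : Odd H.index) : IsPronormal H := by
  obtain ⟨W, hW, hd⟩ := exists_rigidIn_uGL_pow hF h2 k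
  refine pronormal_of_rigidIn hW (Matrix.SpecialLinearGroup.toGL.comp (SU _ F q).subtype)
    (Matrix.SpecialLinearGroup.toGL_injective.comp Subtype.val_injective) (fun w hw => ?_) ?_
    H hZ hH
  · obtain ⟨w', hw'⟩ : ∃ w' : Matrix.SpecialLinearGroup (Fin (2 ^ (k + 2))) F,
        Matrix.SpecialLinearGroup.toGL w' = w := ⟨⟨w.1, hd w hw⟩, Units.ext rfl⟩
    exact ⟨⟨w', (mem_SU_iff_uGL hF).2 (hw' ▸ hW.le hw)⟩, hw'⟩
  · rintro _ ⟨g, rfl⟩
    exact (mem_SU_iff_uGL hF).1 g.2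

end Odd

end Cfsg.Agent.GLn
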