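import Cfsg.Agent.GLn.RegThree

/-! Generation of `SL_n` by regular unipotent elements, `n ≥ 4`. -/

open Matrix Finset

namespace Cfsg.Agent.GLn

variable {F : Type*} [Field F]

theorem exists_k (m : ℕ) {π : F} (hπ : π ≠ 0) (h4 : m = 0 → π ≠ 4) :
    ∃ k : F, (m = 0 → k = 0) ∧ (-1) ^ m * π * (1 - k) ≠ 0 ∧ (-1) ^ m * π * (1 - k) ≠ 4 := by
  by_cases hm : m = 0
  · exact ⟨0, fun _ => rfl, by simpa [hm] using hπ, by simpa [hm] using h4 hm⟩
  obtain ⟨κ, h0, h1⟩ : ∃ κ : F, κ ≠ 0 ∧ κ ≠ 4 := by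
    by_cases h : (1 : F) = 4
    · exact ⟨-1, by simp, fun e => one_ne_zero (α := F) (by linear_combination -2 * h + e)⟩
    · exact ⟨1, one_ne_zero, h⟩
  have : (-1) ^ m * π * (1 - (1 - κ / ((-1) ^ m * π))) = κ := by
    have : (-1 : F) ^ m ≠ 0 := by simp
    field_simp; ring
  exact ⟨1 - κ / ((-1) ^ m * π), fun e => absurd e hm, this.symm ▸ h0, this.symm ▸ h1⟩

theorem exists_two_regular [Finite F] (m : ℕ) :
    ∃ v : Matrix.SpecialLinearGroup (Fin (m + 4)) F,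
      (IsNilpotent (v.1 - 1) ∧ (v.1 - 1) ^ (m + 4 - 1) ≠ 0) ∧
        Subgroup.closure {jord F (m + 4), v} = ⊤ := by
  obtain ⟨π, h0, h4, hπ⟩ : ∃ π : F, π ≠ 0 ∧ π ≠ 4 ∧ AddGen π := by
    obtain ⟨ω, hω0, hω⟩ := exists_generator F
    by_cases h : ω = 4
    · refine ⟨-ω, neg_ne_zero.mpr hω0, fun e => hω0 ?_, fun A hA =>
        addGen_of_generator hω A fun x hx => by simpa using A.neg_mem (hA x hx)⟩
      have h8 : (2 : F) ^ 3 = 0 := by linear_combination -h - e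
      rw [h, show (4 : F) = 2 * 2 by norm_num, pow_eq_zero_iff (by omega) |>.mp h8, zero_mul]
    · exact ⟨ω, hω0, h, addGen_of_generator hω⟩
  obtain ⟨k, h1, h2, h3⟩ := exists_k m h0 fun _ => h4
  obtain ⟨v, P, hP, hv, h⟩ := exists_pair m hπ h0 h1 h2 h3
  exact ⟨v, regular_of_conj (by omega) (hP ▸ inv_ne_zero h0) hv, h⟩

theorem exists_conj_gen_prime [Fintype F] (hp : (Fintype.card F).Prime) (m : ℕ) :
    ∃ g, Subgroup.closure {jord F (m + 4), g * jord F (m + 4) * g⁻¹} = ⊤ := by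
  by_cases h : m = 0 ∧ Fintype.card F = 3
  · obtain ⟨rfl, h⟩ := h
    exact conj_gen_4_3 h
  obtain ⟨k, h1, h2, h3⟩ := exists_k (F := F) m one_ne_zero fun hm e => h ⟨hm, by
    have := charP_of_card (k := 1) hp (pow_one _).symm
    exact (Nat.prime_dvd_prime_iff_eq hp Nat.prime_three).mp
      ((CharP.cast_eq_zero_iff F _ 3).mp (by push_cast; linear_combination -e))⟩
  obtain ⟨v, P, hP, hv, h⟩ := exists_pair m (fun A _ c hc hc0 =>
    addSubgroup_eq_top_of_prime (by rwa [Nat.card_eq_fintype_card]) hc hc0) one_ne_zero h1 h2 h3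
  obtain ⟨g, hg⟩ : ∃ g, g * jord F (m + 4) * g⁻¹ = v :=
    ⟨⟨P, by simpa using hP⟩, mul_inv_eq_iff_eq_mul.mpr (Subtype.ext hv)⟩
  exact ⟨g, hg ▸ h⟩

theorem exists_three_conj [Finite F] (m : ℕ) :
    ∃ g h, Subgroup.closure
      {jord F (m + 4), g * jord F (m + 4) * g⁻¹, h * jord F (m + 4) * h⁻¹} = ⊤ := by
  obtain ⟨ω, hω0, hω⟩ := exists_generator F
  have hp : Fact (ringChar F).Prime := ⟨CharP.char_is_prime F _⟩
  obtain ⟨g, hg⟩ := exists_conj_gen_prime (F := ZMod (ringChar F)) (by simpa using hp.out) m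
  let φ := ZMod.castHom dvd_rfl F (n := ringChar F)
  let Φ := Matrix.SpecialLinearGroup.map (n := Fin (m + 4)) φ
  have hJ : Φ (jord _ _) = jord F _ := Subtype.ext (by
    ext i j
    simp only [Φ, jord_coe, shiftN, Matrix.SpecialLinearGroup.map_apply_coe,
      RingHom.mapMatrix_apply, map_apply, Matrix.add_apply, one_apply, of_apply]
    split_ifs <;> simp)
  have h1m : (-ω • stdv F (m + 4) (m + 3)) ⬝ᵥ stdv F (m + 4) 1 = 0 := by simp [stdv_dot_stdv]
  refine ⟨Φ g, trv _ _ h1m, ?_⟩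
  have h1 := Subgroup.subset_closure (Set.mem_insert (jord F (m + 4))
    {Φ g * jord F (m + 4) * (Φ g)⁻¹, trv _ _ h1m * jord F (m + 4) * (trv _ _ h1m)⁻¹})
  have h2 := Subgroup.subset_closure (Set.mem_insert_of_mem (jord F (m + 4)) (Set.mem_insert
    (Φ g * jord F (m + 4) * (Φ g)⁻¹) {trv _ _ h1m * jord F (m + 4) * (trv _ _ h1m)⁻¹}))
  have h3 := Subgroup.subset_closure (Set.mem_insert_of_mem (jord F (m + 4)) (Set.mem_insert_of_mem
    (Φ g * jord F (m + 4) * (Φ g)⁻¹)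
      (Set.mem_singleton (trv _ _ h1m * jord F (m + 4) * (trv _ _ h1m)⁻¹))))
  generalize Subgroup.closure {jord F (m + 4), Φ g * jord F (m + 4) * (Φ g)⁻¹,
    trv _ _ h1m * jord F (m + 4) * (trv _ _ h1m)⁻¹} = H at h1 h2 h3
  have h4 : ∀ x, Φ x ∈ H := fun x => by
    have : Subgroup.closure {jord _ (m + 4), g * jord _ (m + 4) * g⁻¹} ≤ H.comap Φ := by
      rw [Subgroup.closure_le]
      rintro y (rfl | rfl)
      · simpa [hJ] using h1
      · simpa [hJ] using h2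
    exact this (hg ▸ Subgroup.mem_top x)
  have h5 : ∀ i j, i ≠ j → TIn H (stdv F (m + 4) i) (stdv F (m + 4) j) := fun i j hij => by
    refine ⟨by simp [stdv_dot_stdv, hij.symm], ?_⟩
    convert h4 (trv (stdv _ (m + 4) i) (stdv _ (m + 4) j) (by simp [stdv_dot_stdv, hij.symm]))
    apply Subtype.ext
    ext k l
    simp only [Φ, trv_coe, stdv, Matrix.SpecialLinearGroup.map_apply_coe, vecMulVec_apply,
      RingHom.mapMatrix_apply, map_apply, Matrix.add_apply, one_apply]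
    split_ifs <;> simp
  have h6 : TIn H (stdv F (m + 4) 0) (ω • stdv F (m + 4) (m + 3)) := by
    refine ⟨by simp [stdv_dot_stdv], ?_⟩
    convert H.mul_mem h3 (H.inv_mem h1)
    refine eq_mul_inv_iff_mul_eq.mpr (eq_mul_inv_iff_mul_eq.mpr (Subtype.ext ?_))
    rw [Matrix.ext_iff_mulVec]
    intro x
    simp only [sl_mul_mulVec, trv_mulVec, mulVec_add, mulVec_smul, smul_dotProduct, dotProduct_add,
      dotProduct_smul, stdv_dot_jord, jord_mulVec_succ (show 0 + 1 < m + 4 by omega),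
      stdv_dot_stdv, stdv_of_le (le_refl (m + 4))]
    simp
    module
  have h7 := (h5 (m + 3) 1 (by omega)).comm h6 (by simp [stdv_dot_stdv])
  have h8 := h7.comm (h5 (m + 3) 0 (by omega)) (by simp [stdv_dot_stdv])
  obtain ⟨h9, h10⟩ := h5 (m + 3) 0 (by omega)
  refine eq_top_of_addGen (by omega) h1 (addGen_of_generator hω) (a := ω • stdv F (m + 4) (m + 3))
    (tIn_smul.mpr (by simpa [stdv_dot_stdv] using h8)) (by simp [stdv_dot_stdv]) one_ne_zero
    (by simpa using h5 0 1 (by omega)) h10 ?_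
  simp [trv_mulVec, stdv_dot_stdv]

end Cfsg.Agent.GLn
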