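import Cfsg.Agent.GLn.Bruhat

/-! Double cosets of Young subgroups are counted by contingency tables; the Jacobi-Trudi
identity gives the orthogonality of the alternating sums. -/

namespace Cfsg.Agent.GLn

open Cfsg

section Tables
variable {n : ℕ}

/-- The number of `n × n` tables of naturals with row sums `α` and column sums `β`. -/
noncomputable def tableCount (α β : Fin n → ℕ) : ℕ :=
  Nat.card {T : Fin n → Fin n → ℕ // (∀ s, ∑ t, T s t = α s) ∧ ∀ t, ∑ s, T s t = β t}

theorem card_doubleCoset_young_fin (a b : Fin n → Fin n) (α β : Fin n → ℕ)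
    (ha : ∀ s, (Finset.univ.filter fun i => a i = s).card = α s)
    (hb : ∀ s, (Finset.univ.filter fun i => b i = s).card = β s) :
    Nat.card (DoubleCoset.Quotient (young (fun i => (a i).val) : Set (Equiv.Perm (Fin n)))
      (young fun i => (b i).val)) = tableCount α β := by
  classical
  let T : Equiv.Perm (Fin n) → Fin n → Fin n → ℕ := fun σ s t =>
    (Finset.univ.filter fun j => (a (σ j), b j) = (s, t)).card
  have hT : ∀ σ, (∀ s, ∑ t, T σ s t = α s) ∧ ∀ t, ∑ s, T σ s t = β t := by
    intro σ
    constructor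
    · intro s
      rw [← ha s, ← Finset.card_equiv σ (s := Finset.univ.filter fun j => a (σ j) = s) (by simp),
        Finset.card_eq_sum_card_fiberwise (f := b) (t := Finset.univ) (by simp)]
      refine Finset.sum_congr rfl fun t _ => ?_
      simp only [T, Finset.filter_filter, Prod.mk.injEq]
    · intro t
      rw [← hb t, Finset.card_eq_sum_card_fiberwise (f := fun j => a (σ j)) (t := Finset.univ)
        (by simp)]
      refine Finset.sum_congr rfl fun s _ => ?_
      simp only [T, Finset.filter_filter, Prod.mk.injEq, and_comm]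
  refine Nat.card_congr (Equiv.ofBijective
    (Quotient.lift (s := DoubleCoset.setoid (young (fun i => (a i).val) : Set (Equiv.Perm (Fin n)))
      (young fun i => (b i).val)) (fun σ => ⟨T σ, hT σ⟩) ?_) ⟨?_, ?_⟩)
  · intro σ τ h
    obtain ⟨y, hy, y', hy', rfl⟩ := DoubleCoset.rel_iff.mp h
    refine Subtype.ext (funext fun s => funext fun t => ?_)
    change T σ s t = T (y * σ * y') s t
    refine (Finset.card_equiv y' fun j => ?_).symm
    have h1 : a (y (σ (y' j))) = a (σ (y' j)) := Fin.ext (hy _)
    have h2 : b (y' j) = b j := Fin.ext (hy' _)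
    simp [h1, h2]
  · intro x y
    induction x using Quotient.inductionOn with | h σ =>
    induction y using Quotient.inductionOn with | h τ =>
    intro h
    have h1 : T σ = T τ := congrArg Subtype.val h
    let e : ∀ c : Fin n × Fin n, {j // (a (σ j), b j) = c} ≃ {j // (a (τ j), b j) = c} :=
      fun c => Fintype.equivOfCardEq (by
        rw [Fintype.card_subtype, Fintype.card_subtype]
        exact congrFun (congrFun h1 c.1) c.2)
    let ρ : Equiv.Perm (Fin n) := Equiv.ofFiberEquiv e
    have hρ : ∀ j, (a (τ (ρ j)), b (ρ j)) = (a (σ j), b j) := Equiv.ofFiberEquiv_map e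
    apply Quotient.sound
    refine DoubleCoset.rel_iff.mpr ⟨τ * ρ * σ⁻¹, fun i => ?_, ρ⁻¹,
      (young _).inv_mem fun j => ?_, by group⟩
    · have := congrArg (fun x => x.1.val) (hρ (σ⁻¹ i))
      simpa using this
    · exact congrArg (fun x => x.2.val) (hρ j)
  · rintro ⟨S, hS1, hS2⟩
    let Ω := Σ c : Fin n × Fin n, Fin (S c.1 c.2)
    have hΩ : ∀ (P : Fin n × Fin n → Prop) [DecidablePred P],
        Fintype.card {w : Ω // P w.1} = ∑ c with P c, S c.1 c.2 := by
      intro P _
      rw [Fintype.card_congr (Equiv.subtypeSigmaEquiv _ P), Fintype.card_sigma]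
      simp only [Fintype.card_fin]
      exact (Finset.sum_subtype _ (by simp) (fun c : Fin n × Fin n => S c.1 c.2)).symm
    let e1 : ∀ s : Fin n, {i // a i = s} ≃ {w : Ω // w.1.1 = s} :=
      fun s => Fintype.equivOfCardEq (by
        rw [Fintype.card_subtype, ha, hΩ (fun c => c.1 = s), ← hS1, Finset.sum_filter,
          Fintype.sum_prod_type, Finset.sum_comm]
        simp)
    let e2 : ∀ s : Fin n, {i // b i = s} ≃ {w : Ω // w.1.2 = s} :=
      fun s => Fintype.equivOfCardEq (by
        rw [Fintype.card_subtype, hb, hΩ (fun c => c.2 = s), ← hS2, Finset.sum_filter,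
          Fintype.sum_prod_type]
        simp)
    let f1 : Fin n ≃ Ω := Equiv.ofFiberEquiv e1
    let f2 : Fin n ≃ Ω := Equiv.ofFiberEquiv e2
    have h1 : ∀ i, (f1 i).1.1 = a i := Equiv.ofFiberEquiv_map e1
    have h2 : ∀ i, (f2 i).1.2 = b i := Equiv.ofFiberEquiv_map e2
    refine ⟨Quotient.mk _ (f2.trans f1.symm), Subtype.ext (funext fun s => funext fun t => ?_)⟩
    change T _ s t = S s t
    have h3 := hΩ (fun c => c = (s, t))
    rw [Finset.filter_eq', if_pos (Finset.mem_univ _), Finset.sum_singleton,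
      Fintype.card_subtype] at h3
    rw [← h3]
    refine Finset.card_equiv f2 fun j => ?_
    simp [← h1, ← h2, Prod.ext_iff]

theorem card_doubleCoset_young {α β : Fin n → ℕ} (hα : ∑ i, α i = n) (hβ : ∑ i, β i = n) :
    Nat.card (DoubleCoset.Quotient (youngSubgroup α : Set (Equiv.Perm (Fin n)))
      (youngSubgroup β)) = tableCount α β :=
  card_doubleCoset_young_fin (fun i => ⟨compLabel α i, compLabel_lt hα i⟩)
    (fun i => ⟨compLabel β i, compLabel_lt hβ i⟩) α β
    (fun s => by simpa [Fin.ext_iff] using card_compLabel_eq hα s)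
    (fun s => by simpa [Fin.ext_iff] using card_compLabel_eq hβ s)

end Tables

section JT
variable {n : ℕ}

/-- Geometric series in one of the variables. -/
noncomputable def geo (l : Fin n) : PowerSeries (MvPolynomial (Fin n) ℤ) :=
  PowerSeries.mk fun m => MvPolynomial.X l ^ m

/-- Complete homogeneous symmetric polynomials, via their generating function. -/
noncomputable def hh (n m : ℕ) : MvPolynomial (Fin n) ℤ :=
  PowerSeries.coeff m (∏ l : Fin n, geo l)

theorem geo_mul (l : Fin n) :
    geo l * (1 - PowerSeries.C (MvPolynomial.X l) * PowerSeries.X) = 1 := by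
  ext1 m
  rw [mul_sub, mul_one, map_sub, mul_left_comm, PowerSeries.coeff_C_mul]
  cases m with
  | zero => simp [geo]
  | succ m => simp [geo, PowerSeries.coeff_succ_mul_X, pow_succ', PowerSeries.coeff_one]

theorem hh_eq (m : ℕ) : hh n m =
    ∑ f ∈ Finset.finsuppAntidiag Finset.univ m, MvPolynomial.monomial f 1 := by
  rw [hh, PowerSeries.coeff_prod]
  refine Finset.sum_congr rfl fun f _ => ?_
  simp [geo, MvPolynomial.monomial_eq, Finsupp.prod_fintype]

theorem hh_zero : hh n 0 = 1 := by
  rw [hh_eq]; simp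

theorem coeff_prod_hh (α β : Fin n → ℕ) :
    MvPolynomial.coeff (Finsupp.equivFunOnFinite.symm α) (∏ t, hh n (β t)) = tableCount α β := by
  classical
  simp_rw [hh_eq]
  rw [Finset.prod_univ_sum, MvPolynomial.coeff_sum]
  simp_rw [← MvPolynomial.monomial_sum_one, MvPolynomial.coeff_monomial]
  rw [Finset.sum_boole, tableCount]
  congr 1
  rw [← Nat.card_eq_finsetCard]
  refine Nat.card_congr ⟨fun p => ⟨fun s t => p.1 t s, ?_, ?_⟩,
    fun T => ⟨fun t => Finsupp.equivFunOnFinite.symm fun s => T.1 s t, ?_⟩, fun p => ?_,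
    fun T => ?_⟩
  · intro s
    have := DFunLike.congr_fun (Finset.mem_filter.mp p.2).2 s
    simpa [Finsupp.finsetSum_apply] using this
  · intro t
    have := Fintype.mem_piFinset.mp (Finset.mem_filter.mp p.2).1 t
    exact (Finset.mem_finsuppAntidiag.mp this).1
  · rw [Finset.mem_filter, Fintype.mem_piFinset]
    refine ⟨fun t => Finset.mem_finsuppAntidiag.mpr ⟨T.2.2 t, Finset.subset_univ _⟩, ?_⟩
    ext s
    simpa [Finsupp.finsetSum_apply] using T.2.1 s
  · ext t s; rfl
  · rfl

theorem exists_JT : ∃ c : Matrix (Fin n) (Fin n) (MvPolynomial (Fin n) ℤ), ∀ (k : Fin n) (m : ℕ),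
    MvPolynomial.X k ^ m = ∑ i : Fin n, (if i.val ≤ m then hh n (m - i) else 0) * c i k := by
  classical
  let E : Fin n → Polynomial (MvPolynomial (Fin n) ℤ) := fun k =>
    ∏ l ∈ Finset.univ.erase k, (1 - Polynomial.C (MvPolynomial.X l) * Polynomial.X)
  refine ⟨fun i k => (E k).coeff i, fun k m => ?_⟩
  have hdeg : (E k).natDegree < n := by
    refine (Polynomial.natDegree_prod_le _ _).trans_lt ?_
    refine (Finset.sum_le_card_nsmul _ _ 1 fun l _ => ?_).trans_lt ?_
    · compute_degree
    · have := k.pos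
      simp; omega
  have h1 : geo k = (∏ l : Fin n, geo l) * (E k : PowerSeries _) := by
    rw [← Finset.mul_prod_erase _ _ (Finset.mem_univ k), mul_assoc]
    have : ((E k : Polynomial _) : PowerSeries (MvPolynomial (Fin n) ℤ)) =
        ∏ l ∈ Finset.univ.erase k, (1 - PowerSeries.C (MvPolynomial.X l) * PowerSeries.X) := by
      rw [← Polynomial.coeToPowerSeries.ringHom_apply, map_prod]
      simp
    rw [this, ← Finset.prod_mul_distrib]
    simp [geo_mul]
  have h2 := congrArg (PowerSeries.coeff m) h1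
  rw [PowerSeries.coeff_mul, ← Finset.Nat.sum_antidiagonal_swap,
    Finset.Nat.sum_antidiagonal_eq_sum_range_succ_mk] at h2
  simp only [geo, PowerSeries.coeff_mk, Prod.fst_swap, Prod.snd_swap, Polynomial.coeff_coe] at h2
  rw [h2, Fin.sum_univ_eq_sum_range (fun i => (if i ≤ m then hh n (m - i) else 0) * (E k).coeff i)]
  simp only [ite_mul, zero_mul]
  rw [← Finset.sum_filter]
  symm
  refine Finset.sum_subset (fun i hi => ?_) fun i hi hi' => ?_
  · simp only [Finset.mem_filter, Finset.mem_range] at hi ⊢; omega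
  · simp only [Finset.mem_filter, Finset.mem_range] at hi hi'
    rw [Polynomial.coeff_eq_zero_of_natDegree_lt (by omega), mul_zero]

theorem det_alt (μ : Fin n → ℕ) :
    (Matrix.of fun j k : Fin n => (MvPolynomial.X k ^ μ j : MvPolynomial (Fin n) ℤ)).det =
      ∑ w : Equiv.Perm (Fin n), (Equiv.Perm.sign w : ℤ) •
        MvPolynomial.monomial (Finsupp.equivFunOnFinite.symm fun k => μ (w k)) 1 := by
  rw [Matrix.det_apply]
  refine Finset.sum_congr rfl fun w _ => ?_
  simp [MvPolynomial.monomial_eq, Finsupp.prod_fintype, Units.smul_def]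

theorem jacobi_trudi (μ : Fin n → ℕ) :
    (Matrix.of fun j k : Fin n => (MvPolynomial.X k ^ μ j : MvPolynomial (Fin n) ℤ)).det =
      (Matrix.of fun j k : Fin n => (MvPolynomial.X k ^ j.val : MvPolynomial (Fin n) ℤ)).det *
      ∑ κ : Equiv.Perm (Fin n), if ∀ i, (κ i).val ≤ μ i then
        (Equiv.Perm.sign κ : ℤ) • ∏ i, hh n (μ i - κ i) else 0 := by
  classical
  obtain ⟨c, hc⟩ := exists_JT (n := n)
  have h1 : ∀ μ : Fin n → ℕ,
      (Matrix.of fun j k : Fin n => (MvPolynomial.X k ^ μ j : MvPolynomial (Fin n) ℤ)) =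
      (Matrix.of fun j i : Fin n => if i.val ≤ μ j then hh n (μ j - i) else 0) * c := by
    intro μ
    ext1 j k
    rw [Matrix.mul_apply, Matrix.of_apply, hc]; rfl
  have h2 : (Matrix.of fun j i : Fin n => if i.val ≤ j.val then hh n (j - i) else 0).det = 1 := by
    rw [Matrix.det_of_isLowerTriangular]
    · simp [hh_zero]
    · intro i j hij
      exact if_neg (not_le.mpr hij)
  rw [h1 μ, h1 Fin.val, Matrix.det_mul, Matrix.det_mul, h2, one_mul, mul_comm]
  congr 1
  rw [← Matrix.det_transpose, Matrix.det_apply]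
  refine Finset.sum_congr rfl fun κ _ => ?_
  simp only [Matrix.transpose_apply, Matrix.of_apply, Units.smul_def]
  split_ifs with h
  · simp [h]
  · push Not at h
    obtain ⟨i, hi⟩ := h
    rw [Finset.prod_eq_zero (Finset.mem_univ i) (if_neg (not_le.mpr hi)), smul_zero]

theorem table_orthogonality {l μ : Fin n → ℕ} (hl : StrictMono l) (hμ : StrictMono μ) :
    ∑ κ : Equiv.Perm (Fin n), ∑ κ' : Equiv.Perm (Fin n),
      (if (∀ i, (κ i).val ≤ l i) ∧ (∀ i, (κ' i).val ≤ μ i) then
        (Equiv.Perm.sign κ : ℤ) * (Equiv.Perm.sign κ' : ℤ) *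
          (tableCount (fun i => l i - κ i) (fun i => μ i - κ' i) : ℤ) else 0) =
      if l = μ then 1 else 0 := by
  classical
  have h := congrArg (MvPolynomial.coeff (Finsupp.equivFunOnFinite.symm l)) (jacobi_trudi μ)
  rw [det_alt, det_alt, Finset.sum_mul_sum] at h
  simp only [MvPolynomial.coeff_sum, MvPolynomial.coeff_smul, MvPolynomial.coeff_monomial,
    EmbeddingLike.apply_eq_iff_eq, smul_eq_mul, mul_ite, mul_one, mul_zero] at h
  have h1 : (∑ w : Equiv.Perm (Fin n), if (fun k => μ (w k)) = l then (Equiv.Perm.sign w : ℤ)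
      else 0) = if l = μ then 1 else 0 := by
    rw [Finset.sum_eq_single 1]
    · simp [eq_comm]
    · intro w _ hw
      rw [if_neg]
      intro h2
      have h3 : l = μ := by
        rw [← StrictMono.range_inj hl hμ, ← h2]
        exact w.surjective.range_comp μ
      apply hw
      ext k
      rw [h3] at h2
      simpa using congrArg Fin.val (hμ.injective (congrFun h2 k))
    · simp
  rw [← h1, h]
  refine Finset.sum_congr rfl fun κ _ => Finset.sum_congr rfl fun κ' _ => ?_
  by_cases h2 : ∀ i, (κ' i).val ≤ μ i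
  · rw [if_pos h2, smul_mul_smul_comm, MvPolynomial.coeff_smul, MvPolynomial.coeff_monomial_mul',
      one_mul, smul_eq_mul]
    by_cases h3 : ∀ i, (κ i).val ≤ l i
    · rw [if_pos ⟨h3, h2⟩, if_pos (show (Finsupp.equivFunOnFinite.symm fun k => (κ k).val) ≤
        Finsupp.equivFunOnFinite.symm l from fun i => h3 i), ← coeff_prod_hh]
      congr 2
      ext i; simp
    · rw [if_neg (fun h => h3 h.1), if_neg (show ¬ (Finsupp.equivFunOnFinite.symm
        fun k => (κ k).val) ≤ Finsupp.equivFunOnFinite.symm l from fun h => h3 h), mul_zero]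
  · rw [if_neg h2, if_neg (fun h => h2 h.2)]; simp

end JT

end Cfsg.Agent.GLn
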